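import Mathlib
import Cfsg.Agent.Lib.A6C.Defs
import Cfsg.Agent.Lib.A7S.Gen

/-! The local frame: normal forms. -/

set_option autoImplicit false
set_option linter.unusedSectionVars false
set_option linter.unusedSimpArgs false

namespace H80.A6C

open Subgroup H69 H36.SW

variable {G : Type*} [Group G] [Finite G]

namespace Lf
variable (F : Lf G)

theorem bs_aa (x : G) : F.v1 * (F.v1 * x) = x := by rw [← mul_assoc, F.v11, one_mul]
theorem bs_bb (x : G) : F.v2 * (F.v2 * x) = x := by rw [← mul_assoc, F.v22, one_mul]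
theorem bs_zz (x : G) : F.z * (F.z * x) = x := by rw [← mul_assoc, F.zz, one_mul]
theorem bs_ai : F.v1⁻¹ = F.v1 := inv_eq_of_mul_eq_one_left F.v11
theorem bs_bi : F.v2⁻¹ = F.v2 := inv_eq_of_mul_eq_one_left F.v22
theorem bs_zi : F.z⁻¹ = F.z := inv_eq_of_mul_eq_one_left F.zz

theorem hz' : F.v2 * F.v1 * F.v2 * F.v1 = F.z := by
  rw [← F.bs_zi, ← F.hz]
  simp only [mul_inv_rev, bs_ai, bs_bi, mul_assoc]
theorem zv1 : F.z * F.v1 = F.v1 * F.z := by
  conv_lhs => rw [← F.hz]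
  conv_rhs => rw [← F.hz']
  simp only [mul_assoc]
theorem zv2 : F.z * F.v2 = F.v2 * F.z := by
  conv_lhs => rw [← F.hz']
  conv_rhs => rw [← F.hz]
  simp only [mul_assoc]
theorem v21 : F.v2 * F.v1 = F.z * (F.v1 * F.v2) := by
  rw [← F.hz']
  simp only [mul_assoc, bs_aa, F.v22, mul_one]

theorem bs_az (x : G) : F.v1 * (F.z * x) = F.z * (F.v1 * x) := by rw [← mul_assoc, ← F.zv1, mul_assoc]
theorem bs_bz (x : G) : F.v2 * (F.z * x) = F.z * (F.v2 * x) := by rw [← mul_assoc, ← F.zv2, mul_assoc]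
theorem bs_ba (x : G) : F.v2 * (F.v1 * x) = F.z * (F.v1 * (F.v2 * x)) := by
  rw [← mul_assoc, F.v21]; simp only [mul_assoc]
theorem bs_cc : F.v1 * F.v2 * (F.v1 * F.v2) = F.z := by rw [← F.hz]; simp only [mul_assoc]
theorem bs_cc' : F.v2 * F.v1 * (F.v2 * F.v1) = F.z := by rw [← F.hz']; simp only [mul_assoc]

theorem tT : F.t ∈ F.T := F.RT F.tR
theorem zT : F.z ∈ F.T := F.hz ▸ mul_mem (mul_mem (mul_mem F.v1T F.v2T) F.v1T) F.v2T
theorem Tt {x : G} (hx : x ∈ F.T) : x * F.t = F.t * x := mem_centralizer_singleton_iff.1 (F.syl.le hx)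
theorem T2 {x : G} (hx : x ∈ F.T) : P2 x := P2.of_mem F.syl.isP hx
theorem v1D : F.v1 ∈ F.D := subset_closure (Or.inl rfl)
theorem v2D : F.v2 ∈ F.D := subset_closure (Or.inr rfl)
theorem zD : F.z ∈ F.D := F.hz ▸ mul_mem (mul_mem (mul_mem F.v1D F.v2D) F.v1D) F.v2D
theorem DT : F.D ≤ F.T := (closure_le _).2 (by rintro _ (rfl | rfl); exacts [F.v1T, F.v2T])
theorem memD {d : G} : d ∈ F.D ↔ d = 1 ∨ d = F.z ∨ d = F.v1 ∨ d = F.z * F.v1 ∨ d = F.v2 ∨ d = F.z * F.v2 ∨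
    d = F.v1 * F.v2 ∨ d = F.v2 * F.v1 := by
  constructor
  · intro hd
    induction hd using closure_induction with
    | mem x hx => rcases hx with rfl | rfl <;> simp only [true_or, or_true]
    | one => exact Or.inl rfl
    | mul x y _ _ hx hy =>
      rcases hx with rfl | rfl | rfl | rfl | rfl | rfl | rfl | rfl <;>
        rcases hy with rfl | rfl | rfl | rfl | rfl | rfl | rfl | rfl <;>
        simp only [mul_assoc, one_mul, mul_one, bs_aa, bs_bb, bs_zz, bs_az, bs_bz, bs_ba, F.v11, F.v22, F.zz,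
          ← F.zv1, ← F.zv2, F.v21, true_or, or_true]
    | inv x _ hx =>
      rcases hx with rfl | rfl | rfl | rfl | rfl | rfl | rfl | rfl <;>
        simp only [mul_inv_rev, inv_one, bs_ai, bs_bi, bs_zi, ← F.zv1, ← F.zv2, true_or, or_true]
  · rintro (rfl | rfl | rfl | rfl | rfl | rfl | rfl | rfl)
    exacts [one_mem _, F.zD, F.v1D, mul_mem F.zD F.v1D, F.v2D, mul_mem F.zD F.v2D, mul_mem F.v1D F.v2D,
      mul_mem F.v2D F.v1D]
theorem cjD {x d : G} (hx : x ∈ F.T) (hd : d ∈ F.D) : x * d * x⁻¹ ∈ F.D :=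
  conj_mem_of_mem_normalizer (F.Dn hx) hd
theorem cjR {x r : G} (hx : x ∈ F.T) (hr : r ∈ F.R) : x * r * x⁻¹ ∈ F.R :=
  conj_mem_of_mem_normalizer (F.Rn hx) hr
theorem sqD {d : G} (hd : d ∈ F.D) : d * d = 1 ∨ d * d = F.z := by
  rcases F.memD.1 hd with rfl | rfl | rfl | rfl | rfl | rfl | rfl | rfl <;>
    simp only [mul_assoc, one_mul, mul_one, bs_aa, bs_bb, bs_zz, bs_az, bs_bz, bs_ba, F.v11, F.v22, F.zz,
      F.v21, true_or, or_true]
theorem Tz {x : G} (hx : x ∈ F.T) : x * F.z = F.z * x := by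
  rcases F.sqD (F.cjD hx (mul_mem F.v1D F.v2D)) with e | e <;> rw [conj_mul, F.bs_cc] at e
  · exact absurd e (cjne F.z1 x)
  · exact mul_inv_eq_iff_eq_mul.1 e
theorem act1 {d : G} (hd : d ∈ F.D) : d * F.v1 = F.v1 * d ∨ d * F.v1 = F.z * (F.v1 * d) := by
  rcases F.memD.1 hd with rfl | rfl | rfl | rfl | rfl | rfl | rfl | rfl <;>
    simp only [mul_assoc, one_mul, mul_one, bs_aa, bs_bb, bs_zz, bs_az, bs_bz, bs_ba, F.v11, F.v22, F.zz,
      ← F.zv1, ← F.zv2, F.v21, true_or, or_true]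
theorem act2 {d : G} (hd : d ∈ F.D) : d * F.v2 = F.v2 * d ∨ d * F.v2 = F.z * (F.v2 * d) := by
  rcases F.memD.1 hd with rfl | rfl | rfl | rfl | rfl | rfl | rfl | rfl <;>
    simp only [mul_assoc, one_mul, mul_one, bs_aa, bs_bb, bs_zz, bs_az, bs_bz, bs_ba, F.v11, F.v22, F.zz,
      ← F.zv1, ← F.zv2, F.v21, true_or, or_true]
theorem cen1 {d : G} (hd : d ∈ F.D) (h : d * F.v1 = F.v1 * d) :
    d = 1 ∨ d = F.z ∨ d = F.v1 ∨ d = F.z * F.v1 := by
  have z1 := F.z1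
  rcases F.memD.1 hd with rfl | rfl | rfl | rfl | rfl | rfl | rfl | rfl
  iterate 4 simp only [true_or, or_true]
  all_goals
    simp only [mul_assoc, mul_one, bs_aa, bs_zz, bs_az, bs_bz, bs_ba, F.v11, F.v21] at h
    simp [z1] at h
theorem cen2 {d : G} (hd : d ∈ F.D) (h : d * F.v2 = F.v2 * d) :
    d = 1 ∨ d = F.z ∨ d = F.v2 ∨ d = F.z * F.v2 := by
  have z1 := F.z1
  rcases F.memD.1 hd with rfl | rfl | rfl | rfl | rfl | rfl | rfl | rfl <;>
    first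
    | (simp only [true_or, or_true]; done)
    | (simp only [mul_assoc, mul_one, bs_bb, bs_zz, bs_az, bs_bz, bs_ba, F.v22, F.v21] at h
       simp [z1] at h)
theorem cenD {d : G} (hd : d ∈ F.D) (h1 : d * F.v1 = F.v1 * d) (h2 : d * F.v2 = F.v2 * d) : d = 1 ∨ d = F.z := by
  have z1 := F.z1
  rcases F.cen1 hd h1 with rfl | rfl | rfl | rfl
  iterate 2 simp only [true_or, or_true]
  all_goals
    simp only [mul_assoc, bs_zz, bs_bz, F.v21] at h2
    simp [z1] at h2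
theorem bs_cD {r d : G} (h1 : r * F.v1 = F.v1 * r) (h2 : r * F.v2 = F.v2 * r) (hd : d ∈ F.D) : r * d = d * r := by
  have : F.D ≤ centralizer {r} := (closure_le _).2 (by
    rintro _ (rfl | rfl)
    exacts [mem_centralizer_singleton_iff.2 h1.symm, mem_centralizer_singleton_iff.2 h2.symm])
  exact (mem_centralizer_singleton_iff.1 (this hd)).symm
theorem RD {r d : G} (hr : r ∈ F.R) (hd : d ∈ F.D) : r * d = d * r := F.bs_cD (F.Rv1 r hr) (F.Rv2 r hr) hd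
theorem fD {d : G} (hd : d ∈ F.D) : F.f * d = d * F.f := F.bs_cD F.fv1 F.fv2 hd
theorem Rc {r s : G} (hr : r ∈ F.R) (hs : s ∈ F.R) : r * s = s * r := by
  obtain ⟨g, hg⟩ := F.cyc.exists_generator
  obtain ⟨i, hi⟩ := hg ⟨r, hr⟩
  obtain ⟨j, hj⟩ := hg ⟨s, hs⟩
  have := (Commute.refl g).zpow_zpow i j
  simp only at hi hj
  rw [hi, hj] at this
  exact congrArg Subtype.val this.eq
theorem Rinv {r : G} (hr : r ∈ F.R) (h : r * r = 1) : r = 1 ∨ r = F.t := by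
  classical
  haveI := F.cyc
  haveI := Fintype.ofFinite F.R
  by_contra hn
  push Not at hn
  have h2 := IsCyclic.card_pow_eq_one_le (α := F.R) (n := 2) two_pos
  refine absurd (Finset.two_lt_card_iff.2 ⟨1, ⟨r, hr⟩, ⟨F.t, F.tR⟩, ?_, ?_, ?_, ?_, ?_, ?_⟩) (not_lt.2 h2)
  · simp
  · simpa [pow_two, Subtype.ext_iff] using h
  · simpa [pow_two, Subtype.ext_iff] using F.tt
  · exact fun e => hn.1 (congrArg Subtype.val e).symm
  · exact fun e => F.t1 (congrArg Subtype.val e).symm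
  · exact fun e => hn.2 (congrArg Subtype.val e)
theorem Rrt {r s : G} (hr : r ∈ F.R) (hs : s ∈ F.R) (h : r * r = s * s) : s = r ∨ s = r * F.t := by
  have e : r⁻¹ * s * (r⁻¹ * s) = 1 := by
    calc _ = r⁻¹ * (s * r⁻¹) * s := by group
      _ = (r * r)⁻¹ * (s * s) := by rw [F.Rc hs (inv_mem hr)]; group
      _ = 1 := by rw [h, inv_mul_cancel]
  rcases F.Rinv (mul_mem (inv_mem hr) hs) e with e | e
  · exact Or.inl (inv_mul_eq_one.1 e).symm
  · exact Or.inr (by rw [← e]; group)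
theorem RDi {x : G} (hr : x ∈ F.R) (hd : x ∈ F.D) : x = 1 :=
  (F.cenD hd (F.Rv1 x hr) (F.Rv2 x hr)).resolve_right fun e => F.zR (e ▸ hr)
theorem tD : F.t ∉ F.D := fun h => F.t1 (F.RDi F.tR h)
theorem tz : F.t ≠ F.z := fun e => F.zR (e ▸ F.tR)
theorem bs_T0 : F.T0 = F.R ⊔ F.D ⊔ zpowers F.f := by
  rw [T0, D, sup_assoc, zpowers_eq_closure, ← Subgroup.closure_union, Set.insert_union, Set.singleton_union]
theorem bs_n : F.T ≤ 𝐍(F.R ⊔ F.D) := le_normalizer_sup F.Rn F.Dn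
theorem bs_mem {x : G} : x ∈ F.R ⊔ F.D ↔ ∃ r ∈ F.R, ∃ d ∈ F.D, x = r * d := mem_sup_comm fun _ h _ k => F.RD h k
theorem bs_mem0 {x : G} : x ∈ F.T0 ↔ x ∈ F.R ⊔ F.D ∨ x * F.f⁻¹ ∈ F.R ⊔ F.D := by
  rw [F.bs_T0, H25.A7.mem_adj (F.bs_n F.fT) (mem_sup_left F.ff)]
theorem mem0 {x : G} : x ∈ F.T0 ↔ ∃ r ∈ F.R, ∃ d ∈ F.D, x = r * d ∨ x = r * d * F.f := by
  rw [F.bs_mem0, F.bs_mem, F.bs_mem]
  constructor
  · rintro (⟨r, hr, d, hd, e⟩ | ⟨r, hr, d, hd, e⟩)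
    exacts [⟨r, hr, d, hd, Or.inl e⟩, ⟨r, hr, d, hd, Or.inr (mul_inv_eq_iff_eq_mul.1 e)⟩]
  · rintro ⟨r, hr, d, hd, e | e⟩
    exacts [Or.inl ⟨r, hr, d, hd, e⟩, Or.inr ⟨r, hr, d, hd, mul_inv_eq_iff_eq_mul.2 e⟩]
theorem T0T : F.T0 ≤ F.T := by
  rw [F.bs_T0]; exact sup_le (sup_le F.RT F.DT) (zpowers_le.2 F.fT)
theorem R0 : F.R ≤ F.T0 := le_sup_left
theorem D0 : F.D ≤ F.T0 := by
  rw [F.bs_T0]; exact le_sup_right.trans le_sup_left
theorem f0 : F.f ∈ F.T0 := by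
  rw [F.bs_T0]; exact mem_sup_right (mem_zpowers _)
theorem bs_idx {x y : G} (hx : x ∈ F.T) (hy : y ∈ F.T) (h : x ∉ F.T0) (k : y ∉ F.T0) : x * y ∈ F.T0 :=
  F.idx x hx y hy h k
theorem cj0 {x y : G} (hx : x ∈ F.T) (hy : y ∈ F.T0) : x * y * x⁻¹ ∈ F.T0 := by
  by_cases h : x ∈ F.T0
  · exact mul_mem (mul_mem h hy) (inv_mem h)
  · exact F.bs_idx (mul_mem hx (F.T0T hy)) (inv_mem hx) (by rwa [mul_mem_cancel_right hy]) (by rwa [inv_mem_iff])
/-- elements outside `T0` have a commutator of order 4 with `v1` -/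
theorem out1 {x : G} (hx : x ∈ F.T) (h0 : x ∉ F.T0) :
    x * F.v1 * x⁻¹ * F.v1 = F.v1 * F.v2 ∨ x * F.v1 * x⁻¹ * F.v1 = F.v2 * F.v1 := by
  rcases F.sw1 x hx h0 with e | e <;> rw [e]
  · exact Or.inr rfl
  · exact Or.inl (by rw [mul_assoc, F.v21, F.bs_zz])
theorem in0 {x : G} (hx : x ∈ F.T) (h : x * F.v1 * x⁻¹ * F.v1 * (x * F.v1 * x⁻¹ * F.v1) = 1) : x ∈ F.T0 := by
  by_contra h0
  rcases F.out1 hx h0 with e | e <;> rw [e] at h
  exacts [F.z1 (F.bs_cc ▸ h), F.z1 (F.bs_cc' ▸ h)]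
/-- commutators lie in `R D` -/
theorem cmT {x y : G} (hx : x ∈ F.T) (hy : y ∈ F.T) : ∃ r ∈ F.R, ∃ d ∈ F.D, x * y * x⁻¹ * y⁻¹ = r * d := by
  have cj : ∀ {x p}, x ∈ F.T → p ∈ F.R ⊔ F.D → x * p * x⁻¹ ∈ F.R ⊔ F.D := fun hx hp =>
    conj_mem_of_mem_normalizer (F.bs_n hx) hp
  have s1 : ∀ {x}, x ∈ F.T → x * F.f * x⁻¹ * F.f⁻¹ ∈ F.R ⊔ F.D := fun {x} hx => by
    by_cases h : x ∈ F.T0
    · rcases F.bs_mem0.1 h with e | e
      · have := mul_mem e (cj F.fT (inv_mem e))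
        simpa only [mul_assoc] using this
      · have := mul_mem e (cj F.fT (inv_mem e))
        convert this using 1; group
    · by_cases f1 : F.f = 1
      · rw [f1]; simp
      · have := mul_mem (mem_sup_left (F.swf x hx h f1)) (mem_sup_right (T := F.D) (S := F.R) F.zD)
        convert this using 1
        rw [mul_inv_rev, mul_assoc _ _ F.z, mul_assoc _ _ F.z, inv_mul_cancel, mul_one]
  have s2 : ∀ {x y}, x ∈ F.T → y ∈ F.T0 → x * y * x⁻¹ * y⁻¹ ∈ F.R ⊔ F.D := fun {x y} hx hy => by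
    rcases F.bs_mem0.1 hy with e | e
    · exact mul_mem (cj hx e) (inv_mem e)
    · have := mul_mem (mul_mem (cj hx e) (s1 hx)) (inv_mem e)
      convert this using 1; group
  refine F.bs_mem.1 ?_
  by_cases h : y ∈ F.T0
  · exact s2 hx h
  by_cases k : x ∈ F.T0
  · have := inv_mem (s2 hy k)
    convert this using 1; group
  · have := cj hx (s2 hx (F.bs_idx (inv_mem hx) hy (by rwa [inv_mem_iff]) h))
    convert this using 1; group
theorem exDl (f1 : F.f ≠ 1) (h : ∃ x ∈ F.T, x ∉ F.T0) : ∃ τ, F.Dl τ := by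
  have sA : ∃ x ∈ F.T, x ∉ F.T0 ∧ x * F.v1 * x⁻¹ = F.v2 := by
    obtain ⟨x, hx, h0⟩ := h
    rcases F.sw1 x hx h0 with e | e
    · exact ⟨x, hx, h0, e⟩
    · refine ⟨F.v1 * x, mul_mem F.v1T hx, by rwa [mul_mem_cancel_left (F.D0 F.v1D)], ?_⟩
      calc _ = F.v1 * (x * F.v1 * x⁻¹) * F.v1⁻¹ := by group
        _ = _ := by
          rw [e]; simp only [bs_ai, mul_assoc, bs_aa, bs_zz, bs_az, F.v21]
  have sB : ∃ x ∈ F.T, x ∉ F.T0 ∧ x * F.v1 * x⁻¹ = F.v2 ∧ x * F.v2 * x⁻¹ = F.v1 := by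
    obtain ⟨x, hx, h0, e1⟩ := sA
    rcases F.sw2 x hx h0 with e | e
    · exact ⟨x, hx, h0, e1, e⟩
    · refine ⟨F.v2 * x, mul_mem F.v2T hx, by rwa [mul_mem_cancel_left (F.D0 F.v2D)], ?_, ?_⟩
      · calc _ = F.v2 * (x * F.v1 * x⁻¹) * F.v2⁻¹ := by group
          _ = _ := by rw [e1, mul_inv_cancel_right]
      · calc _ = F.v2 * (x * F.v2 * x⁻¹) * F.v2⁻¹ := by group
          _ = _ := by
            rw [e]; simp only [bs_bi, mul_assoc, bs_zz, bs_bz, bs_ba, F.v22, mul_one]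
  obtain ⟨τ, hτ, h0, e1, e2⟩ := sB
  have c1 : τ * τ * F.v1 = F.v1 * (τ * τ) := mul_inv_eq_iff_eq_mul.1 (by
    calc _ = τ * (τ * F.v1 * τ⁻¹) * τ⁻¹ := by group
      _ = _ := by rw [e1, e2])
  have c2 : τ * τ * F.v2 = F.v2 * (τ * τ) := mul_inv_eq_iff_eq_mul.1 (by
    calc _ = τ * (τ * F.v2 * τ⁻¹) * τ⁻¹ := by group
      _ = _ := by rw [e2, e1])
  obtain ⟨s, hs, es⟩ : ∃ s ∈ F.R, τ * F.f * τ⁻¹ = s * (F.z * F.f) := ⟨_, F.swf τ hτ h0 f1, by group⟩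
  have cd : ∀ {r d w : G}, r ∈ F.R → d ∈ F.D → Commute w F.v1 → Commute w F.v2 → τ * τ = r * d * w →
      d = 1 ∨ d = F.z := fun {r d w} hr hd w1 w2 e => by
    have : d = r⁻¹ * (τ * τ) * w⁻¹ := by rw [e]; group
    refine F.cenD hd ?_ ?_ <;> rw [this]
    · exact (((show Commute r F.v1 from F.Rv1 r hr).inv_left.mul_left c1).mul_left w1.inv_left).eq
    · exact (((show Commute r F.v2 from F.Rv2 r hr).inv_left.mul_left c2).mul_left w2.inv_left).eq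
  obtain ⟨r, hr, d, hd, e | e⟩ := F.mem0.1 (F.bs_idx hτ hτ h0 h0)
  · rcases cd hr hd (Commute.one_left _) (Commute.one_left _) (by rw [mul_one]; exact e) with rfl | rfl
    · exact ⟨τ, hτ, h0, e1, e2, by rw [e, mul_one]; exact hr⟩
    · refine ⟨τ * F.f, mul_mem hτ F.fT, by rwa [mul_mem_cancel_right F.f0], ?_, ?_, ?_⟩
      · calc _ = τ * (F.f * F.v1 * F.f⁻¹) * τ⁻¹ := by group
          _ = _ := by rw [F.fv1, mul_inv_cancel_right, e1]
      · calc _ = τ * (F.f * F.v2 * F.f⁻¹) * τ⁻¹ := by group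
          _ = _ := by rw [F.fv2, mul_inv_cancel_right, e2]
      · have : τ * F.f * (τ * F.f) = s * (F.f * r * F.f⁻¹) * (F.f * F.f) := by
          calc _ = τ * F.f * τ⁻¹ * (τ * τ) * F.f := by group
            _ = s * (F.z * (F.f * r) * F.z) * F.f := by rw [es, e]; group
            _ = _ := by
              rw [← F.Tz (mul_mem F.fT (F.RT hr)), mul_assoc _ F.z, F.zz]; group
        rw [this]
        exact mul_mem (mul_mem hs (F.cjR F.fT hr)) F.ff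
  · exfalso
    have dc : τ * d * τ⁻¹ = d := by
      rcases cd hr hd F.fv1 F.fv2 e with rfl | rfl
      · group
      · exact mul_inv_eq_iff_eq_mul.2 (F.Tz hτ)
    have e3 : τ * r * τ⁻¹ * d * (s * (F.z * F.f)) = r * d * F.f := by
      rw [← es]
      conv_lhs => rw [← dc]
      rw [conj_mul, conj_mul, ← e]; group
    have e4 : F.z = (τ * r * τ⁻¹ * s)⁻¹ * r := by
      have k1 : d * s = s * d := (F.RD hs hd).symm
      have k2 : d * F.z = F.z * d := F.Tz (F.DT hd)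
      rw [eq_inv_mul_iff_mul_eq]
      refine mul_right_cancel (b := d * F.f) ?_
      calc _ = τ * r * τ⁻¹ * (s * (F.z * d)) * F.f := by group
        _ = τ * r * τ⁻¹ * d * (s * (F.z * F.f)) := by rw [← k2, ← mul_assoc s, ← k1]; group
        _ = _ := by rw [e3, mul_assoc]
    exact F.zR (e4 ▸ mul_mem (inv_mem (mul_mem (F.cjR hτ hr) hs)) hr)
theorem memT {τ x : G} (hτ : τ ∈ F.T) (h0 : τ ∉ F.T0) (hx : x ∈ F.T) : x ∈ F.T0 ∨ ∃ y ∈ F.T0, x = τ * y :=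
  (em _).imp id fun h => ⟨_, F.bs_idx (inv_mem hτ) hx (by rwa [inv_mem_iff]) h, by group⟩
theorem card0 (h : F.R2) : Nat.card F.T0 ≤ 32 := by
  classical
  have c1 : Nat.card F.R ≤ 2 := by
    rw [← card_zp F.tt F.t1]
    exact card_le_of_le fun r hr => (mem_zp F.tt).2 (h r hr)
  have c2 : Nat.card F.D ≤ 8 := by
    have := Set.ncard_le_ncard (s := (F.D : Set G)) (t := ↑[1, F.z, F.v1, F.z * F.v1, F.v2, F.z * F.v2,
      F.v1 * F.v2, F.v2 * F.v1].toFinset) (fun d hd => by simpa using F.memD.1 hd)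
    rw [Set.ncard_coe_finset] at this
    exact this.trans (List.toFinset_card_le _)
  have c3 := Nat.card_le_card_of_surjective
    (fun x : F.R × F.D × Bool => (⟨x.1 * x.2.1 * (if x.2.2 then F.f else 1), mul_mem
      (mul_mem (F.R0 x.1.2) (F.D0 x.2.1.2)) (by split_ifs; exacts [F.f0, one_mem _])⟩ : F.T0)) fun y => by
      obtain ⟨r, hr, d, hd, e | e⟩ := F.mem0.1 y.2
      · exact ⟨(⟨r, hr⟩, ⟨d, hd⟩, false), Subtype.ext (by simp [e])⟩
      · exact ⟨(⟨r, hr⟩, ⟨d, hd⟩, true), Subtype.ext (by simp [e])⟩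
  rw [Nat.card_prod, Nat.card_prod, Nat.card_eq_fintype_card (α := Bool), Fintype.card_bool] at c3
  exact c3.trans (Nat.mul_le_mul c1 (Nat.mul_le_mul_right 2 c2))
theorem cardT : Nat.card F.T ≤ 2 * Nat.card F.T0 := by
  by_cases h : F.T ≤ F.T0
  · have := card_le_of_le h
    omega
  · obtain ⟨τ, hτ, h0⟩ := SetLike.not_le_iff_exists.1 h
    have n : τ ∈ 𝐍(F.T0) := mem_normalizer_of_cj_le fun _ ⟨y, hy, e⟩ => e ▸ F.cj0 hτ hy
    rw [← H25.A7.card_adj n (F.bs_idx hτ hτ h0 h0) h0]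
    refine card_le_of_le fun x hx => ?_
    rcases F.memT hτ h0 hx with k | ⟨y, hy, rfl⟩
    exacts [mem_sup_left k, mul_mem (mem_sup_right (mem_zpowers _)) (mem_sup_left hy)]
theorem SC {S : Subgroup G} (hS : IsPGroup 2 S) (hT : F.T ≤ S) {x : G} (hx : x ∈ S) (c : x * F.t = F.t * x) :
    x ∈ F.T := by
  have : S ⊓ centralizer {F.t} = F.T := (eq_of_le_of_card_ge (le_inf hT F.syl.le)
    (F.syl.card_le hS.to_inf_left inf_le_right)).symm
  exact this.le ⟨hx, mem_centralizer_singleton_iff.2 c⟩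
theorem sylT (h : ∀ n ∈ 𝐍(F.T), n * F.t * n⁻¹ = F.t) : IsSylowIn 2 F.T ⊤ :=
  H25.A7.syl_of_norm (t := F.t) F.syl.isP le_top (by rw [inf_eq_left.2 F.syl.le, top_inf_eq]; exact F.syl)
    fun k _ hk => ⟨1, one_mem _, by rw [h k hk]; group⟩

end Lf

end H80.A6C
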