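import Mathlib
import Cfsg.Agent.Lib.A6C.Defs
import Cfsg.Agent.Lib.StdA.Six
import Cfsg.Agent.S2119

/-! The model `Aut A₆`: cosets. -/

set_option autoImplicit false

namespace H80.A6C

open Subgroup H69 H36.SW

namespace Mo1

theorem io_app (p : S6) (g : A6) : ((io p) g).1 = p * g.1 * p⁻¹ := MulAut.conjNormal_apply p g

theorem io_coe (g : A6) : io g = MulAut.conj g :=
  MulEquiv.ext fun x => Subtype.ext (io_app g x)

theorem conj_of {p q : S6} (hp : p ^ 2 = 1) (hq : q ^ 2 = 1)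
    (h : Multiset.card p.cycleType * 2 = q.support.card) {r : S6} (hr : r ∉ A6) (c : r * q * r⁻¹ = q) :
    ∃ j ∈ A6, j * p * j⁻¹ = q := by
  have e1 := Equiv.Perm.cycleType_of_pow_prime_eq_one hp
  have e2 := Equiv.Perm.cycleType_of_pow_prime_eq_one hq
  have e3 := q.sum_cycleType
  rw [e2, Multiset.sum_replicate, smul_eq_mul, ← h] at e3
  obtain ⟨j, hj⟩ := isConj_iff.1 (Equiv.Perm.isConj_iff_cycleType_eq.2
    (by rw [e1, e2, Nat.eq_of_mul_eq_mul_right (by norm_num) e3]) : IsConj p q)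
  by_cases m : j ∈ A6
  · exact ⟨j, m, hj⟩
  · refine ⟨r * j, ?_, by rw [← c, ← hj]; group⟩
    rw [Equiv.Perm.mem_alternatingGroup] at m hr ⊢
    rw [map_mul, (Int.units_eq_one_or _).resolve_left m, (Int.units_eq_one_or _).resolve_left hr]
    rfl

theorem bound {p : S6} (hp : p ^ 2 = 1) :
    Multiset.card p.cycleType * 2 ≤ 6 ∧
      Equiv.Perm.sign p = (-1) ^ (Multiset.card p.cycleType * 2 + Multiset.card p.cycleType) := by
  have e1 := Equiv.Perm.cycleType_of_pow_prime_eq_one hp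
  have e2 : p.cycleType.sum = Multiset.card p.cycleType * 2 := by
    conv_lhs => rw [e1, Multiset.sum_replicate, smul_eq_mul]
  exact ⟨e2 ▸ p.sum_cycleType_le, e2 ▸ p.sign_of_cycleType⟩

theorem cls_inv {p : S6} (hp : p ∈ A6) (h2 : p * p = 1) (h1 : p ≠ 1) : ∃ j ∈ A6, j * p * j⁻¹ = pz := by
  rw [← pow_two] at h2
  obtain ⟨b, s⟩ := bound h2
  have k0 := Equiv.Perm.card_cycleType_pos.2 h1
  refine conj_of h2 (by decide) ?_ (r := pu) (by rw [Equiv.Perm.mem_alternatingGroup]; decide)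
    (by decide)
  rw [Equiv.Perm.mem_alternatingGroup.1 hp] at s
  generalize Multiset.card p.cycleType = k at *
  have : k ≤ 3 := by omega
  interval_cases k <;> first | decide | exact absurd s (by decide)

end Mo1

open Mo1

theorem io_inj : Function.Injective io := by
  rw [injective_iff_map_eq_one]
  intro p hp
  refine H29.eq_one_of_centralizes_alt (by simp) fun y hy => ?_
  have := io_app p ⟨y, hy⟩
  rw [hp] at this
  exact this.symm

theorem io_eq {p q : S6} : io p = io q ↔ p = q := io_inj.eq_iff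

theorem io_J {p : S6} : io p ∈ J6 ↔ Equiv.Perm.sign p = 1 := by
  unfold J6
  rw [mem_map_iff_mem io_inj, Equiv.Perm.mem_alternatingGroup]

theorem io_Y (p : S6) : io p ∈ Y6 := ⟨p, rfl⟩

theorem mem_J6 {x : X6} : x ∈ J6 ↔ ∃ g : A6, x = MulAut.conj g := by
  constructor
  · rintro ⟨p, hp, rfl⟩
    exact ⟨⟨p, hp⟩, io_coe ⟨p, hp⟩⟩
  · rintro ⟨g, rfl⟩
    exact ⟨g.1, g.2, io_coe g⟩

theorem mem_Y6 {x : X6} : x ∈ Y6 ↔ H44.SA.Pind x := by
  constructor
  · rintro ⟨p, rfl⟩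
    exact ⟨p, io_app p⟩
  · rintro ⟨p, hp⟩
    exact ⟨p, MulEquiv.ext fun y => Subtype.ext ((io_app p y).trans (hp y).symm)⟩

/-- conjugation of inner automorphisms -/
theorem cj_io (x : X6) (g : A6) : x * io g * x⁻¹ = io (x g) := by
  rw [io_coe, io_coe]
  refine MulEquiv.ext fun y => ?_
  simp [MulAut.conj_apply]

theorem JY : J6 ≤ Y6 := by
  rintro _ ⟨p, -, rfl⟩
  exact io_Y p

theorem idxY {x y : X6} (hx : x ∉ Y6) (hy : y ∉ Y6) : x * y ∈ Y6 := by
  rw [mem_Y6] at *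
  exact H44.SA.Six.pind_mul hx hy

theorem nY : Y6.Normal := by
  refine ⟨fun y hy x => ?_⟩
  by_cases hx : x ∈ Y6
  · exact mul_mem (mul_mem hx hy) (inv_mem hx)
  · refine idxY (fun k => hx ?_) (fun k => hx (inv_mem_iff.1 k))
    exact (mul_mem_cancel_right hy).1 k

theorem nJ : J6.Normal := by
  refine ⟨?_⟩
  rintro _ ⟨p, hp, rfl⟩ x
  have := cj_io x ⟨p, hp⟩
  rw [show io p = io ((⟨p, hp⟩ : A6) : S6) from rfl, this]
  exact ⟨_, (x ⟨p, hp⟩).2, rfl⟩

theorem oddY {x : X6} {n : ℕ} (hn : Odd n) (h : x ^ n ∈ Y6) : x ∈ Y6 := by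
  by_contra hx
  obtain ⟨k, rfl⟩ := hn
  rw [pow_succ, pow_mul, pow_two] at h
  exact hx ((mul_mem_cancel_left (pow_mem (idxY hx hx) k)).1 h)

theorem cJ6 {g : X6} (h : ∀ j ∈ J6, g * j = j * g) : g = 1 := by
  refine MulEquiv.ext fun y => Subtype.ext (io_inj ?_)
  rw [← cj_io, h _ ⟨y.1, y.2, rfl⟩, mul_inv_cancel_right]
  rfl

theorem isoJ : Nonempty (alternatingGroup (Fin 6) ≃* J6) := ⟨A6.equivMapOfInjective io io_inj⟩

theorem aut6 (φ : J6 ≃* J6) : ∃ x : X6, ∀ j : J6, (φ j : X6) = x * j * x⁻¹ := by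
  let e : A6 ≃* J6 := A6.equivMapOfInjective io io_inj
  have he : ∀ g : A6, (e g : X6) = io g := fun g => rfl
  refine ⟨(e.trans φ).trans e.symm, fun j => ?_⟩
  obtain ⟨g, rfl⟩ := e.surjective j
  rw [he, cj_io, ← he]
  simp

theorem sq6 (x : X6) (h : x * x * (x * x) = 1) : x * x ∈ J6 := by
  by_cases hx : x ∈ Y6
  · obtain ⟨p, rfl⟩ := hx
    rw [← map_mul, io_J, map_mul]
    exact Int.units_mul_self _
  · have := H44.SA.Six.key (a := x * x) (b := x) (mem_Y6.1 (idxY hx hx)) h (mul_assoc _ _ _)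
    exact mem_J6.2 (this.resolve_right fun k => hx (mem_Y6.2 k))

theorem out6 (x y : X6) (hx : x * x = 1) (hy : y * y = 1) (c : x * y = y * x) :
    x ∈ J6 ∨ y ∈ J6 ∨ x * y ∈ J6 := by
  simp only [mem_J6]
  exact H44.SA.six_out x y hx hy c

theorem inv6 {x : X6} (hx : x ∈ J6) (h2 : x * x = 1) (h1 : x ≠ 1) : ∃ j ∈ J6, j * x * j⁻¹ = io pz := by
  obtain ⟨p, hp, rfl⟩ := hx
  obtain ⟨j, hj, e⟩ := cls_inv hp (io_inj (by rw [map_mul, h2, map_one])) (fun k => h1 (by rw [k, map_one]))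
  exact ⟨io j, ⟨j, hj, rfl⟩, by rw [← e, map_mul, map_mul, map_inv]⟩

end H80.A6C
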