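import Mathlib
import Cfsg.Agent.Lib.A6C.Mo1
import Cfsg.Agent.Lib.A7S.Cv
import Cfsg.Agent.Lib.Comp.Quasisimple
import Cfsg.Agent.Lib.Core.PCore

/-! Covers and the reduction to `E⟨t⟩`. -/

set_option autoImplicit false
set_option linter.unusedSectionVars false

namespace H80.A6C

open Subgroup H69 H36.SW
open scoped commutatorElement

variable {X : Type} [Group X] {G : Type*} [Group G] [Finite G]
variable {J : Subgroup X} {A E : Subgroup G} {α : G → X} {t : G}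

/-- the odd core of a standard subgroup is its centre -/
theorem core_center (hA : Cfsg.IsStandardSubgroup A) {n : ℕ} (hn : 5 ≤ n)
    (hX : Nonempty (A ⧸ Cfsg.oddCore A ≃* alternatingGroup (Fin n))) :
    Odd (Nat.card (center A)) ∧ Nonempty (A ⧸ center A ≃* alternatingGroup (Fin n)) := by
  obtain ⟨e⟩ := hX
  have h1 : Cfsg.oddCore A ≤ center A := by
    refine (H23.IsQuasisimple.normal_eq_top_or_le_center hA.1 _).resolve_left fun k => ?_
    have : Nontrivial (alternatingGroup (Fin n)) :=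
      alternatingGroup.nontrivial_of_three_le_card (by simp; omega)
    obtain ⟨x, hx⟩ := exists_ne (1 : alternatingGroup (Fin n))
    obtain ⟨y, rfl⟩ := e.surjective x
    obtain ⟨a, rfl⟩ := QuotientGroup.mk_surjective y
    exact hx (by rw [(QuotientGroup.eq_one_iff a).2 (k ▸ mem_top a), map_one])
  have h2 : center A ≤ Cfsg.oddCore A := fun a ha => by
    rw [← QuotientGroup.eq_one_iff, ← e.map_eq_one_iff, ← mem_bot,
      ← alternatingGroup.center_eq_bot (α := Fin n) (by simp; omega), mem_center_iff]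
    intro x
    obtain ⟨y, rfl⟩ := e.surjective x
    obtain ⟨b, rfl⟩ := QuotientGroup.mk_surjective y
    rw [← map_mul, ← map_mul, ← QuotientGroup.mk_mul, ← QuotientGroup.mk_mul, mem_center_iff.1 ha b]
  have h3 := le_antisymm h2 h1
  exact ⟨h3 ▸ H1.odd_card_oddCore, ⟨(QuotientGroup.quotientMulEquivOfEq h3).trans e⟩⟩

omit [Finite G] in
theorem cv_cov [Finite X] (cJ : ∀ g : X, (∀ j ∈ J, g * j = j * g) → g = 1)
    (aut : ∀ φ : J ≃* J, ∃ x : X, ∀ j : J, (φ j : X) = x * j * x⁻¹) (f : A →* X) (hm : ∀ a, f a ∈ J)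
    (ho : ∀ j ∈ J, ∃ a, f a = j) (hk : ∀ a : A, f a = 1 → (a : G) ∈ 𝐂(A) ∧ Odd (orderOf (a : G)))
    (hp : A ≤ ⁅A, A⁆) : ∃ α : G → X, Cov J A α := by
  classical
  have kz : ∀ a : A, (a : G) ∈ 𝐂(A) → f a = 1 := fun a ha => cJ _ fun j hj => by
    obtain ⟨b, rfl⟩ := ho j hj
    rw [← map_mul, ← map_mul]; congr 1; exact Subtype.ext (ha b b.2).symm
  let f' : A →* J := f.codRestrict _ hm
  have sj : Function.Surjective f' := fun j => let ⟨a, h⟩ := ho j j.2; ⟨a, Subtype.ext h⟩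
  have key : ∀ g : 𝐍(A), ∃ x : X, ∀ a : A, f (A.normalizerMonoidHom g a) = x * f a * x⁻¹ := fun g => by
    have nz : ∀ a : A, f (A.normalizerMonoidHom g a) = 1 ↔ f a = 1 := fun a =>
      ⟨fun h => kz _ (by
        have := conj_mem_of_mem_normalizer' (normalizer_le_normalizer_centralizer A g.2) (hk _ h).1
        simpa [mul_assoc] using this),
      fun h => kz _ (conj_mem_of_mem_normalizer (normalizer_le_normalizer_centralizer A g.2) (hk _ h).1)⟩
    let ψ : J →* J := f'.liftOfSurjective sj ⟨f'.comp (A.normalizerMonoidHom g).toMonoidHom,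
      fun a ha => Subtype.ext ((nz a).2 (congrArg Subtype.val ha))⟩
    have e : ∀ a, ψ (f' a) = f' (A.normalizerMonoidHom g a) := fun a =>
      f'.liftOfRightInverse_comp_apply _ _ _ a
    have inj : Function.Injective ψ := (injective_iff_map_eq_one _).2 fun j hj => by
      obtain ⟨a, rfl⟩ := sj j
      rw [e] at hj
      exact Subtype.ext ((nz a).1 (congrArg Subtype.val hj))
    obtain ⟨x, hx⟩ := aut (MulEquiv.ofBijective ψ (Finite.injective_iff_bijective.1 inj))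
    exact ⟨x, fun a => (congrArg Subtype.val (e a)).symm.trans (hx (f' a))⟩
  choose β hβ using key
  have un : ∀ (g : 𝐍(A)) (x : X), (∀ a : A, f (A.normalizerMonoidHom g a) = x * f a * x⁻¹) → β g = x :=
    fun g x h => (inv_mul_eq_one.1 (cJ (x⁻¹ * β g) fun j hj => by
      obtain ⟨a, rfl⟩ := ho j hj
      calc _ = x⁻¹ * (β g * f a * (β g)⁻¹) * β g := by group
        _ = _ := by rw [← hβ, h]; group)).symm
  have ea : ∀ a : A, β ⟨a, le_normalizer a.2⟩ = f a := fun a => un _ _ fun b => by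
    rw [← map_inv, ← map_mul, ← map_mul]; rfl
  have ea' : ∀ a : A, (if h : (a : G) ∈ 𝐍(A) then β ⟨a, h⟩ else 1) = f a := fun a => by
    rw [dif_pos (le_normalizer a.2), ea]
  refine ⟨fun g => if h : g ∈ 𝐍(A) then β ⟨g, h⟩ else 1, ⟨fun g hg k hk => ?_, fun a ha => ?_,
    fun j hj => ?_, fun g hg => ?_, fun a ha h => ?_, hp⟩⟩
  · rw [dif_pos hg, dif_pos hk, dif_pos (mul_mem hg hk)]
    refine un (⟨g, hg⟩ * ⟨k, hk⟩) _ fun a => ?_
    rw [map_mul, MulAut.mul_apply, hβ, hβ]; group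
  · exact ea' ⟨a, ha⟩ ▸ hm _
  · obtain ⟨a, rfl⟩ := ho j hj
    exact ⟨a, a.2, ea' a⟩
  · rw [dif_pos hg]
    refine ⟨fun h => mem_cent_of_perf hp hg fun a ha => ?_, fun h => un _ _ fun a => ?_⟩
    · refine (hk ((⟨a, ha⟩ : A)⁻¹ * A.normalizerMonoidHom ⟨g, hg⟩ ⟨a, ha⟩) ?_).1
      rw [map_mul, hβ, h]; simp
    · rw [one_mul, inv_one, mul_one]; congr 1
      exact Subtype.ext (conj_eq_of_mem_centralizer h a.2)
  · exact (hk ⟨a, ha⟩ ((ea' ⟨a, ha⟩).symm.trans h)).2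

theorem exists_st [Finite X] (cJ : ∀ g : X, (∀ j ∈ J, g * j = j * g) → g = 1)
    (aut : ∀ φ : J ≃* J, ∃ x : X, ∀ j : J, (φ j : X) = x * j * x⁻¹)
    (hA : Cfsg.IsStandardSubgroup A) (hZ : Odd (Nat.card (center A)))
    (hX : Nonempty (A ⧸ center A ≃* J)) : ∃ α, St J A α := by
  obtain ⟨e⟩ := hX
  obtain ⟨⟨h1, -⟩, ⟨-, h2⟩, -, h4⟩ := hA
  obtain ⟨α, c⟩ := cv_cov (A := A) cJ aut
    (J.subtype.comp (e.toMonoidHom.comp (QuotientGroup.mk' (center A)))) (fun a => (e a).2)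
    (fun j hj => by
      obtain ⟨a, ha⟩ := QuotientGroup.mk'_surjective (center A) (e.symm ⟨j, hj⟩)
      exact ⟨a, by rw [MonoidHom.comp_apply, MonoidHom.comp_apply, ha]; simp⟩)
    (fun a ha => by
      have : a ∈ center A := by
        rw [← QuotientGroup.eq_one_iff, ← e.map_eq_one_iff]
        exact Subtype.ext ha
      refine ⟨H25.A7.Cv.mem_center.1 this, ?_⟩
      rw [orderOf_coe, ← orderOf_mk a this]
      exact hZ.of_dvd_nat (orderOf_dvd_natCard _))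
    (H25.A7.Cv.perf_iff.1 h1.commutator_eq_top)
  refine ⟨α, c, fun g k k2 k1 hk hg => ?_⟩
  by_contra hn
  rw [h4] at hn
  have := (h2 g hn).of_dvd_nat (Subgroup.orderOf_dvd_natCard (𝐂(A) ⊓ 𝐂(A) ^ᶜ g)
    (x := g * k * g⁻¹) ⟨hg, cj_mem g hk⟩)
  exact cjne k1 g ((P2.of_sq (cjsq k2 g)).eq_one this)

theorem exists_st5 (hA : Cfsg.IsStandardSubgroup A) (hZ : Odd (Nat.card (center A)))
    (hX : Nonempty (A ⧸ center A ≃* alternatingGroup (Fin 5))) : ∃ α, St J5 A α := by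
  refine exists_st (fun g h => ?_) (fun φ => ?_) hA hZ hX
  · apply (Cfsg.Agent.S2119.result 5 (by norm_num) (by norm_num)).1
    rw [map_one]
    ext1 j
    exact Subtype.ext (mul_inv_eq_iff_eq_mul.2 (h j j.2))
  · obtain ⟨x, hx⟩ := (Cfsg.Agent.S2119.result 5 (by norm_num) (by norm_num)).2 φ
    exact ⟨x, fun j => by rw [← hx]; rfl⟩

theorem exists_st6 (hA : Cfsg.IsStandardSubgroup A) (hZ : Odd (Nat.card (center A)))
    (hX : Nonempty (A ⧸ center A ≃* alternatingGroup (Fin 6))) : ∃ α, St J6 A α :=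
  exists_st (fun _ h => cJ6 h) aut6 hA hZ (let ⟨e⟩ := hX; let ⟨f⟩ := isoJ; ⟨e.trans f⟩)

omit [Finite G] in
theorem St.CN (s : St J A α) {k g : G} (k2 : k * k = 1) (k1 : k ≠ 1) (hk : k ∈ 𝐂(A)) (c : g * k = k * g) :
    g ∈ 𝐍(A) := s.ti g k k2 k1 hk (by rwa [c, mul_inv_cancel_right])

omit [Finite G] in
theorem H0.HN (h : H0 J E A α t) {g : G} (c : g * t = t * g) : g ∈ 𝐍(A) := h.toSt.CN h.tt h.t1 h.tA c

theorem dec_inner (c : Cov J A α) {s : G} (hs : s ∈ 𝐍(A)) (s2 : s * s = 1) (h : α s ∈ J) :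
    ∃ a ∈ A, ∃ k ∈ 𝐂(A), a * a = 1 ∧ k * k = 1 ∧ α a = α s ∧ s = k * a := by
  obtain ⟨a, ha, ea, a2⟩ := c.lifti h (c.sq hs s2)
  have hk := c.inv_mul_mem (le_normalizer ha) hs ea
  have e : s = a⁻¹ * s * a := by rw [← hk a ha, mul_inv_cancel_left]
  refine ⟨a, ha, _, hk, a2, ?_, ea, e⟩
  calc a⁻¹ * s * (a⁻¹ * s) = a⁻¹ * s * a * (a * a)⁻¹ * s := by group
    _ = 1 := by rw [← e, a2, inv_one, mul_one, s2]

theorem lift_ord (c : Cov J A α) {a b : G} (ha : a ∈ A) (hb : b ∈ A) (a2 : a * a = 1) (b2 : b * b = 1) {n : ℕ}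
    (h : (α a * α b) ^ n = 1) : (a * b) ^ n = 1 := by
  have m := pow_mem (mul_mem ha hb) n
  have e : α ((a * b) ^ n) = 1 := by rw [c.pow (le_normalizer (mul_mem ha hb)), c.mul' ha hb, h]
  have h1 := conj_eq_of_mem_centralizer (le_centralizer_iff.1
    (zpowers_le.2 ((c.ker _ (le_normalizer m)).1 e)) ha) (mem_zpowers _)
  have h2 : a * (a * b) * a⁻¹ = (a * b)⁻¹ := by
    rw [← mul_assoc, a2, one_mul, mul_inv_rev, inv_eq_of_mul_eq_one_right b2]
  rw [← conj_pow, h2, inv_pow] at h1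
  exact c.eq_one m (P2.of_sq (inv_eq_iff_mul_eq_one.1 h1)) e

theorem H0.eqt (h : H0 J E A α t) {k : G} (c : k * t = t * k) (k2 : k * k = 1) (e : α k = 1) : k = 1 ∨ k = t :=
  (h.rk k ((h.cov.ker k (h.HN c)).1 e) t h.tA k2 h.tt c).imp_right fun e => e.resolve_left h.t1

theorem H0.tnA (h : H0 J E A α t) : t ∉ A := fun m => h.t1 ((P2.of_sq h.tt).eq_one (h.cov.odd' m h.tA))

theorem H1.over2 (h : H1 J E A α t) {g a : G} (c : g * t = t * g) (g2 : P2 g) (c' : a * t = t * a) (a2 : P2 a)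
    (cm : g * a = a * g) (e : α a = α g) : g = a ∨ g = a * t := by
  have := h.k2 _ (h.cov.inv_mul_mem (h.toSt.CN h.tt h.t1 h.tA c') (h.toSt.CN h.tt h.t1 h.tA c) e)
    (Commute.mul_left (Commute.inv_left c') c) (a2.inv.mul g2 (Commute.inv_left cm.symm))
  exact this.imp (fun e => (inv_mul_eq_one.1 e).symm) fun e => inv_mul_eq_iff_eq_mul.1 e

theorem H1.over2' (h : H1 J E A α t) {g a : G} (c : g * t = t * g) (g2 : P2 g) (ha : a ∈ A) (a2 : P2 a)
    (e : α a = α g) : g = a ∨ g = a * t :=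
  h.over2 c g2 (h.tA a ha) a2 (h.cov.comm_lift (h.toSt.CN h.tt h.t1 h.tA c) ha a2 (by rw [e])) e

omit [Finite G] in
theorem cv_four {k : G} (h : P2 k) (n : k * k ≠ 1) :
    ∃ j : ℕ, k ^ j * k ^ j ≠ 1 ∧ k ^ j * k ^ j * (k ^ j * k ^ j) = 1 := by
  obtain ⟨m, hm⟩ := h
  induction m generalizing k with
  | zero => exact (n (by rw [pow_zero, pow_one] at hm; rw [hm, mul_one])).elim
  | succ m ih =>
    by_cases e : k * k * (k * k) = 1
    · exact ⟨1, by simpa using n, by simpa using e⟩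
    · obtain ⟨j, hj⟩ := ih e (by rw [← pow_two, ← pow_mul, ← pow_succ', hm])
      exact ⟨2 * j, by rwa [pow_mul, pow_two]⟩

/-- `t` is a square in `C(A)`, or `⟨t⟩` is a Sylow 2-subgroup -/
theorem H0.h1 (h : H0 J E A α t) : (∃ r ∈ 𝐂(A), r * r = t) ∨ H1 J E A α t := by
  refine (em _).imp id fun hn => ⟨h, fun k hk kt k2 => by_contra fun ne => hn ?_⟩
  have c := h.cov
  obtain ⟨j, r2, r4⟩ := cv_four k2 fun e => ne (h.eqt kt e (c.cen hk))
  have hr := pow_mem hk j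
  exact ⟨_, hr, (h.eqt (Commute.mul_left (Commute.pow_left kt j) (Commute.pow_left kt j)) r4
    (c.cen (mul_mem hr hr))).resolve_left r2⟩

theorem H0.rT (h : H0 J E A α t) {T : Subgroup G} (hT : IsSylowIn 2 T (centralizer {t})) {r : G}
    (hr : r ∈ 𝐂(A)) (r2 : r * r = t) : ∃ r ∈ T, r ∈ 𝐂(A) ∧ r * r = t := by
  obtain ⟨k, hk, e⟩ := hT.exists_cj_le (P2.of_mul_self (r2 ▸ P2.of_sq h.tt)).zpowers
    (zpowers_le.2 (mem_centralizer_singleton_iff.2 (by rw [← r2, mul_assoc])))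
  have kt := mem_centralizer_singleton_iff.1 hk
  exact ⟨_, e (cj_mem k (mem_zpowers r)),
    conj_mem_of_mem_normalizer (normalizer_le_normalizer_centralizer A (h.HN kt)) hr,
    by rw [conj_mul, r2, kt, mul_inv_cancel_right]⟩

theorem cyc_of (hR : ∀ R : Sylow 2 𝐂(A), IsCyclic (R : Subgroup 𝐂(A))) :
    ∀ P ≤ 𝐂(A), IsPGroup 2 P → IsCyclic P := fun P hP p => by
  obtain ⟨R, h⟩ := (isPGroup_subgroupOf p 𝐂(A)).exists_le_sylow
  have := hR R
  have := isCyclic_of_le h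
  exact isCyclic_of_surjective _ (subgroupOfEquivOfLe hP).surjective

theorem rk_of (cyc : ∀ P ≤ 𝐂(A), IsPGroup 2 P → IsCyclic P) :
    ∀ a ∈ 𝐂(A), ∀ b ∈ 𝐂(A), a * a = 1 → b * b = 1 → a * b = b * a → a = 1 ∨ b = 1 ∨ a = b := by
  classical
  intro a ha b hb a2 b2 c
  have := cyc (zpowers a ⊔ zpowers b) (sup_le (zpowers_le.2 ha) (zpowers_le.2 hb))
    (H25.A7.isP_sup (P2.of_sq a2).zpowers (P2.of_sq b2) (centralizer_le_normalizer _ (by
      rw [centralizer_zpowers, mem_centralizer_singleton_iff, c])))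
  have := Fintype.ofFinite (zpowers a ⊔ zpowers b : Subgroup G)
  by_contra hn
  push Not at hn
  have h2 := IsCyclic.card_pow_eq_one_le (α := (zpowers a ⊔ zpowers b : Subgroup G)) (n := 2) two_pos
  refine absurd (Finset.two_lt_card_iff.2 ⟨1, ⟨a, mem_sup_left (mem_zpowers a)⟩,
    ⟨b, mem_sup_right (mem_zpowers b)⟩, ?_, ?_, ?_, ?_, ?_, ?_⟩) (not_lt.2 h2)
  · simp
  · simpa [pow_two, Subtype.ext_iff] using a2
  · simpa [pow_two, Subtype.ext_iff] using b2
  · exact fun e => hn.1 (congrArg Subtype.val e).symm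
  · exact fun e => hn.2.1 (congrArg Subtype.val e).symm
  · exact fun e => hn.2.2 (congrArg Subtype.val e)

end H80.A6C
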