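import Mathlib
import Cfsg.Agent.Lib.A6C.Bas
import Cfsg.Agent.Lib.A6C.SR

/-! `R = ⟨t⟩`: no involution over a transposition. -/

set_option autoImplicit false
set_option linter.unusedSectionVars false

namespace H80.A6C

open Subgroup H69 H36.SW

variable {G : Type*} [Group G] [Finite G]

namespace Lf
variable (F : Lf G)

theorem iab_rr (h : F.R2) {r : G} (hr : r ∈ F.R) : r * r = 1 := by
  rcases h r hr with rfl | rfl
  · exact mul_one _
  · exact F.tt

theorem iab_rc (h : F.R2) {r x : G} (hr : r ∈ F.R) (hx : x ∈ F.T) : Commute r x := by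
  rcases h r hr with rfl | rfl
  · exact Commute.one_left _
  · exact (F.Tt hx).symm

theorem iab_sq (h : F.R2) {r x : G} (hr : r ∈ F.R) (hx : x ∈ F.T) : r * x * (r * x) = x * x := by
  rw [(F.iab_rc h hr hx).symm.mul_mul_mul_comm, F.iab_rr h hr, one_mul]

theorem iab_sqf (h : F.R2) {r d : G} (hr : r ∈ F.R) (hd : d ∈ F.D) :
    r * d * F.f * (r * d * F.f) = d * d * (F.f * F.f) := by
  rw [mul_assoc r d, F.iab_sq h hr (mul_mem (F.DT hd) F.fT),
    (show Commute F.f d from F.fD hd).mul_mul_mul_comm]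

theorem iab_nc : ¬ Commute F.v1 F.v2 := fun e => F.z1 (by
  rw [← F.hz, mul_assoc (F.v1 * F.v2), e.symm.mul_mul_mul_comm, F.v11, F.v22, mul_one])

theorem iab_cancel {r d x : G} (h1 : Commute r x) (h2 : Commute (r * d) x) : Commute d x := by
  simpa using h1.inv_left.mul_left h2

theorem iab_cancel' {d f x : G} (h1 : Commute f x) (h2 : Commute (d * f) x) : Commute d x := by
  simpa using h2.mul_left h1.inv_left

end Lf

theorem Lf.Ia (F : Lf G) (h : F.R2) (f1 : F.f = 1) : Cfsg.SectionalPRankLE 2 4 G := by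
  obtain ⟨S, hS, hT⟩ := exists_isSylowIn_le F.syl.isP le_top
  refine sr8' hS (hT F.tT) (hT F.zT) (hT F.v1T) F.tt F.zz F.v11 (F.Tz F.tT) (F.Rv1 _ F.tR) F.zv1 F.t1 F.z1
    F.tz.symm (fun e => F.iab_nc (e ▸ Commute.one_left _)) (fun e => F.tD (e ▸ F.v1D))
    (fun e => F.iab_nc (e ▸ F.zv2)) (fun e => F.tD ?_) fun x hx c1 c2 c3 => ?_
  · rw [eq_mul_inv_of_mul_eq e.symm]
    exact mul_mem F.v1D (inv_mem F.zD)
  have xT := F.SC hS.isP hT hx c1
  have e : x * F.v1 * x⁻¹ * F.v1 = 1 := by rw [c3, mul_inv_cancel_right, F.v11]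
  obtain ⟨r, hr, d, hd, k⟩ := F.mem0.1 (F.in0 xT (by rw [e, mul_one]))
  rw [f1, mul_one, or_self] at k
  subst k
  have mt : F.t ∈ closure ({F.t, F.z, F.v1} : Set G) := subset_closure (by simp)
  have mz : F.z ∈ closure ({F.t, F.z, F.v1} : Set G) := subset_closure (by simp)
  have mv : F.v1 ∈ closure ({F.t, F.z, F.v1} : Set G) := subset_closure (by simp)
  refine mul_mem ?_ ?_
  · rcases h r hr with rfl | rfl
    · exact one_mem _
    · exact mt
  · rcases F.cen1 hd (Lf.iab_cancel (F.Rv1 r hr) c3) with rfl | rfl | rfl | rfl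
    · exact one_mem _
    · exact mz
    · exact mv
    · exact mul_mem mz mv

theorem Lf.iab_out (F : Lf G) (h : F.R2) (ft : F.f * F.f = F.t) {τ : G} (hτ : F.Dl τ) :
    Cfsg.SectionalPRankLE 2 4 G := by
  obtain ⟨S, hS, hT⟩ := exists_isSylowIn_le F.syl.isP le_top
  refine srt hS (hT F.tT) F.tt (z := F.z) fun B hB hn el b hb c => ?_
  have bT := F.SC hS.isP hT (hB hb) c
  have cm : ∀ x ∈ B, ∀ y ∈ B, Commute x y := fun x hx y hy => by
    have e := el _ (mul_mem hx hy)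
    have e1 : x * y = (x * y)⁻¹ := eq_inv_of_mul_eq_one_left e
    rw [mul_inv_rev, inv_eq_of_mul_eq_one_right (el x hx), inv_eq_of_mul_eq_one_right (el y hy)] at e1
    exact e1
  have h0 : b ∈ F.T0 := by
    refine F.in0 bT (el _ ?_)
    have := mul_mem hb (conj_mem_of_mem_normalizer (hn (hT F.v1T)) (inv_mem hb))
    rwa [inv_eq_of_mul_eq_one_right F.v11, ← mul_assoc, ← mul_assoc] at this
  have bb := el b hb
  obtain ⟨r, hr, d, hd, rfl | rfl⟩ := F.mem0.1 h0
  · rw [F.iab_sq h hr (F.DT hd)] at bb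
    have h1 := cm _ hb _ (conj_mem_of_mem_normalizer (hn (hT hτ.τT)) hb)
    have h2 : τ * (r * d) * τ⁻¹ = r * (τ * d * τ⁻¹) := by
      rw [← mul_assoc τ, ← (F.iab_rc h hr hτ.τT).eq]; group
    have hd' := F.DT (F.cjD hτ.τT hd)
    rw [h2] at h1
    have h3 : Commute d (τ * d * τ⁻¹) := (Lf.iab_cancel (F.iab_rc h hr (F.DT hd))
      (Lf.iab_cancel (F.iab_rc h hr (mul_mem (F.RT hr) hd')) h1).symm).symm
    have hz : ∀ v, τ * (F.z * v) * τ⁻¹ = F.z * (τ * v * τ⁻¹) := fun v => by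
      rw [← mul_assoc τ, F.Tz hτ.τT]; group
    have z1 : Commute F.z F.v1 := F.zv1
    have z2 : Commute F.z F.v2 := F.zv2
    rcases F.memD.1 hd with rfl | rfl | rfl | rfl | rfl | rfl | rfl | rfl
    · rcases h r hr with rfl | rfl <;> simp
    · rcases h r hr with rfl | rfl <;> simp
    · exact absurd (hτ.τ1 ▸ h3) F.iab_nc
    · rw [hz, hτ.τ1] at h3
      exact absurd (Lf.iab_cancel z1 (Lf.iab_cancel ((Commute.refl _).mul_right z2) h3).symm).symm F.iab_nc
    · exact absurd (hτ.τ2 ▸ h3).symm F.iab_nc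
    · rw [hz, hτ.τ2] at h3
      exact absurd (Lf.iab_cancel z2 (Lf.iab_cancel ((Commute.refl _).mul_right z1) h3).symm) F.iab_nc
    · exact absurd (by rw [← F.hz, mul_assoc (F.v1 * F.v2), bb]) F.z1
    · exact absurd (by rw [← F.hz', mul_assoc (F.v2 * F.v1), bb]) F.z1
  · rw [F.iab_sqf h hr hd, ft] at bb
    rcases F.sqD hd with e | e <;> rw [e] at bb
    · exact absurd (by rwa [one_mul] at bb) F.t1
    · exact absurd (mul_left_cancel (bb.trans F.zz.symm)) F.tz

theorem Lf.iab_in (F : Lf G) (h : F.R2) (ft : F.f * F.f = F.t) (h0 : F.T ≤ F.T0) :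
    Cfsg.SectionalPRankLE 2 4 G := by
  have fc : ∀ x ∈ F.T, Commute x F.f := fun x hx => by
    obtain ⟨r, hr, d, hd, rfl | rfl⟩ := F.mem0.1 (h0 hx)
    · exact (F.iab_rc h hr F.fT).mul_left (F.fD hd).symm
    · exact ((F.iab_rc h hr F.fT).mul_left (F.fD hd).symm).mul_left (Commute.refl _)
  have hS := F.sylT fun n hn => by
    have c : ∀ x ∈ F.T, Commute (n * F.f * n⁻¹) x := fun x hx => by
      have := (fc _ (conj_mem_of_mem_normalizer' hn hx)).symm.map (MulAut.conj n)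
      simpa [mul_assoc] using this
    have e : n * F.t * n⁻¹ = n * F.f * n⁻¹ * (n * F.f * n⁻¹) := by rw [← ft]; group
    have n1 : n * F.t * n⁻¹ ≠ 1 := by simpa using F.t1
    have dd : ∀ d ∈ F.D, Commute d F.v1 → Commute d F.v2 → d * d = 1 := fun d hd a b => by
      rcases F.cenD hd a b with rfl | rfl
      · exact mul_one _
      · exact F.zz
    have c1 := c _ F.v1T
    have c2 := c _ F.v2T
    obtain ⟨r, hr, d, hd, k | k⟩ := F.mem0.1 (h0 (conj_mem_of_mem_normalizer hn F.fT)) <;> rw [k] at e c1 c2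
    · rw [F.iab_sq h hr (F.DT hd), dd d hd (Lf.iab_cancel (F.Rv1 r hr) c1) (Lf.iab_cancel (F.Rv2 r hr) c2)] at e
      exact absurd e n1
    · rwa [F.iab_sqf h hr hd, ft, dd d hd (Lf.iab_cancel (F.Rv1 r hr) (Lf.iab_cancel' F.fv1 c1))
        (Lf.iab_cancel (F.Rv2 r hr) (Lf.iab_cancel' F.fv2 c2)), one_mul] at e
  have ho : orderOf F.f = 2 ^ (1 + 1) := orderOf_eq_prime_pow (by rw [pow_one, sq, ft]; exact F.t1)
    (by rw [pow_succ, pow_mul, pow_one, sq, sq, ft, F.tt])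
  refine srcyc hS F.fT ?_
  rw [ho]
  exact (card_le_of_le h0).trans (F.card0 h)

theorem Lf.Ib (F : Lf G) (h : F.R2) (ft : F.f * F.f = F.t) : Cfsg.SectionalPRankLE 2 4 G := by
  by_cases h0 : F.T ≤ F.T0
  · exact F.iab_in h ft h0
  · obtain ⟨τ, hτ⟩ := F.exDl (fun e => F.t1 (by rw [← ft, e, mul_one])) (SetLike.not_le_iff_exists.1 h0)
    exact F.iab_out h ft hτ

end H80.A6C
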