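import Mathlib
import Cfsg.Agent.Lib.A6C.Bas
import Cfsg.Agent.Lib.A6C.SR

/-! `R = ⟨t⟩`, `f ^ τ = z f t`. -/

set_option autoImplicit false

namespace H80.A6C

open Subgroup H69 H36.SW

variable {G : Type*} [Group G] [Finite G]

namespace Ic

variable {F : Lf G}

theorem cR (h : F.R2) {r x : G} (hr : r ∈ F.R) (hx : x ∈ F.T) : Commute x r := by
  rcases h r hr with rfl | rfl
  exacts [Commute.one_right _, F.Tt hx]

theorem cZ {d x : G} (hd : d = 1 ∨ d = F.z) (hx : x ∈ F.T) : Commute x d := by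
  rcases hd with rfl | rfl
  exacts [Commute.one_right _, F.Tz hx]

theorem tz1 : F.t * F.z ≠ 1 := fun e =>
  F.tz (mul_right_cancel (e.trans F.zz.symm))

/-- an element of `T0` that centralises `D` -/
theorem cen0 {x : G} (hx : x ∈ F.T0) (h1 : x * F.v1 = F.v1 * x) (h2 : x * F.v2 = F.v2 * x) :
    ∃ r ∈ F.R, ∃ d, (d = 1 ∨ d = F.z) ∧ (x = r * d ∨ x = r * d * F.f) := by
  obtain ⟨r, hr, d, hd, e⟩ := F.mem0.1 hx
  have k : ∀ v, Commute r v → Commute F.f v → Commute x v → d * v = v * d := fun v a b c => by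
    rcases e with rfl | rfl
    · simpa using (a.inv_left.mul_left c).eq
    · have : Commute (r⁻¹ * (r * d * F.f) * F.f⁻¹) v := (a.inv_left.mul_left c).mul_left b.inv_left
      rw [show r⁻¹ * (r * d * F.f) * F.f⁻¹ = d by group] at this
      exact this.eq
  exact ⟨r, hr, d, F.cenD hd (k _ (F.Rv1 r hr) F.fv1 h1) (k _ (F.Rv2 r hr) F.fv2 h2), e⟩

theorem sq0 (h : F.R2) (ff : F.f * F.f = 1) {x : G} (hx : x ∈ F.T0) : x * x = 1 ∨ x * x = F.z := by
  obtain ⟨r, hr, d, hd, e⟩ := F.mem0.1 hx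
  have c1 : Commute r d := F.RD hr hd
  have c2 : Commute (r * d) F.f := ((cR h hr F.fT).symm).mul_left (Commute.symm (F.fD hd))
  have r2 : r ^ 2 = 1 := by
    rcases h r hr with rfl | rfl
    exacts [one_pow _, (sq _).trans F.tt]
  have e1 : (r * d) ^ 2 = d * d := by rw [c1.mul_pow, r2, one_mul, sq]
  have e2 : x * x = d * d := by
    rcases e with rfl | rfl
    · rw [← sq, e1]
    · rw [← sq, c2.mul_pow, e1, sq, ff, mul_one]
  rw [e2]
  exact F.sqD hd

theorem cf0 (h : F.R2) {x : G} (hx : x ∈ F.T0) : Commute x F.f := by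
  obtain ⟨r, hr, d, hd, e⟩ := F.mem0.1 hx
  have c2 : Commute (r * d) F.f := ((cR h hr F.fT).symm).mul_left (Commute.symm (F.fD hd))
  rcases e with rfl | rfl
  exacts [c2, c2.mul_left (Commute.refl _)]

end Ic

open Ic in
theorem Lf.Ic (F : Lf G) (h : F.R2) (f1 : F.f ≠ 1) (ff : F.f * F.f = 1) {τ : G} (d : F.Dl τ)
    (e : τ * F.f * τ⁻¹ = F.t * (F.z * F.f)) : Cfsg.SectionalPRankLE 2 4 G := by
  have wT : τ * F.v1 ∈ F.T := mul_mem d.τT F.v1T
  have w2 : (τ * F.v1) ^ 2 = τ * τ * (F.v2 * F.v1) := by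
    rw [← mul_assoc, F.Rv2 _ d.ττ, ← d.τ1, sq]; group
  have w4 : (τ * F.v1) ^ 4 = F.z := by
    have c : Commute (τ * τ) (F.v2 * F.v1) := F.RD d.ττ (mul_mem F.v2D F.v1D)
    have r2 : (τ * τ) ^ 2 = 1 := by
      rcases h _ d.ττ with e | e <;> rw [e]
      exacts [one_pow _, (sq _).trans F.tt]
    rw [show (4 : ℕ) = 2 * 2 from rfl, pow_mul, w2, c.mul_pow, r2, one_mul, ← F.hz', sq]
    simp only [mul_assoc]
  have p4 : ∀ x ∈ F.T, x ^ 4 = 1 ∨ x ^ 4 = F.z := fun x hx => by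
    have : x * x ∈ F.T0 := by
      by_cases h0 : x ∈ F.T0
      exacts [mul_mem h0 h0, F.idx x hx x hx h0 h0]
    rw [show x ^ 4 = x * x * (x * x) by rw [show (4 : ℕ) = 2 * 2 from rfl, pow_mul, sq, sq]]
    exact sq0 h ff this
  have mv : ∀ {r c : G}, r ∈ F.R → (c = 1 ∨ c = F.z) →
      τ * (r * c * F.f) * τ⁻¹ = F.t * F.z * (r * c * F.f) := fun {r c} hr hc => by
    have c1 : Commute τ (r * c) := (cR h hr d.τT).mul_right (cZ hc d.τT)
    have c2 : Commute (F.t * F.z) (r * c) :=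
      (cR h hr (mul_mem F.tT F.zT)).mul_right (cZ hc (mul_mem F.tT F.zT))
    calc τ * (r * c * F.f) * τ⁻¹ = τ * (r * c) * τ⁻¹ * (τ * F.f * τ⁻¹) := by group
      _ = r * c * (F.t * F.z) * F.f := by rw [c1.eq, e]; group
      _ = _ := by rw [← c2.eq]; group
  have cf : ∀ y ∈ F.T, y * F.f * y⁻¹ = F.f ∨ y * F.f * y⁻¹ = F.t * (F.z * F.f) := fun y hy => by
    rcases F.memT d.τT d.τ0 hy with h0 | ⟨y0, h0, rfl⟩
    · left; rw [(cf0 h h0).eq, mul_inv_cancel_right]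
    · right; rw [← e, mul_assoc τ, (cf0 h h0).eq]; group
  refine srcyc (F.sylT fun n hn => ?_) wT ?_
  swap
  · have : orderOf (τ * F.v1) = 2 ^ 3 := orderOf_eq_prime_pow (n := 2) (by rw [show 2 ^ 2 = 4 from rfl, w4]; exact F.z1)
      (by rw [show 2 ^ (2 + 1) = 4 * 2 from rfl, pow_mul, w4, sq, F.zz])
    have h1 := F.card0 h
    have h2 := F.cardT
    omega
  have cj : ∀ {x}, x ∈ F.T → n * x * n⁻¹ ∈ F.T := fun hx => conj_mem_of_mem_normalizer hn hx
  have cj' : ∀ {x}, x ∈ F.T → n⁻¹ * x * n ∈ F.T := fun hx => conj_mem_of_mem_normalizer' hn hx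
  have zn : n * F.z * n⁻¹ = F.z := by
    have := p4 _ (cj wT)
    rw [conj_pow, w4] at this
    exact this.resolve_left fun e => F.z1 (by simpa using e)
  have sc : ∀ x ∈ F.T, n * F.t * n⁻¹ * x = x * (n * F.t * n⁻¹) := fun x hx => by
    have := F.Tt (cj' hx)
    calc n * F.t * n⁻¹ * x = n * (F.t * (n⁻¹ * x * n)) * n⁻¹ := by group
      _ = _ := by rw [← this]; group
  have s0 : n * F.t * n⁻¹ ∈ F.T0 := F.in0 (cj F.tT) (by
    rw [sc _ F.v1T, mul_inv_cancel_right, F.v11, mul_one])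
  obtain ⟨r, hr, c, hc, e1 | e1⟩ := cen0 s0 (sc _ F.v1T) (sc _ F.v2T)
  swap
  · have := mv hr hc
    rw [← e1, ← sc _ d.τT, mul_inv_cancel_right] at this
    exact absurd (by simpa using this) (tz1 (F := F))
  rcases h r hr with rfl | rfl <;> rcases hc with rfl | rfl
  · exact absurd (by simpa using e1) F.t1
  · rw [one_mul, ← zn] at e1
    exact absurd (by simpa using e1) F.tz
  · rw [e1, mul_one]
  exfalso
  have ψT := cj F.fT
  have ψ2 : n * F.f * n⁻¹ * (n * F.f * n⁻¹) = 1 := by rw [conj_mul, ff]; group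
  have cψ : ∀ x ∈ F.T, x * (n * F.f * n⁻¹) * x⁻¹ = n * F.f * n⁻¹ ∨
      x * (n * F.f * n⁻¹) * x⁻¹ = F.t * (n * F.f * n⁻¹) := fun x hx => by
    have e2 : x * (n * F.f * n⁻¹) * x⁻¹ = n * (n⁻¹ * x * n * F.f * (n⁻¹ * x * n)⁻¹) * n⁻¹ := by group
    rcases cf _ (cj' hx) with e3 | e3 <;> rw [e2, e3]
    · exact Or.inl rfl
    · right
      rw [← conj_mul, ← conj_mul, e1, zn, ← mul_assoc, mul_assoc F.t, F.zz, mul_one]
  have nc : ¬ Commute (n * τ * n⁻¹) (n * F.f * n⁻¹) := fun c => by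
    have c' : τ * F.f = F.f * τ := by
      have := c.eq
      rw [conj_mul, conj_mul] at this
      simpa using this
    rw [c', mul_inv_cancel_right, ← mul_assoc] at e
    exact tz1 (F := F) (by simpa using e)
  generalize n * F.f * n⁻¹ = ψ at ψT ψ2 cψ nc
  have ψ0 : ψ ∈ F.T0 := F.in0 ψT (by
    have e2 : ψ * F.v1 * ψ⁻¹ * F.v1 = ψ * (F.v1 * ψ * F.v1⁻¹) := by
      rw [inv_eq_of_mul_eq_one_right ψ2, inv_eq_of_mul_eq_one_right F.v11]; group
    rcases cψ _ F.v1T with e3 | e3 <;> rw [e2, e3]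
    · rw [ψ2, mul_one]
    · rw [← mul_assoc ψ, F.Tt ψT, mul_assoc F.t, ψ2, mul_one, F.tt])
  have k : ∀ v ∈ F.D, (∀ c ∈ F.D, c * v = v * c ∨ c * v = F.z * (v * c)) → ψ * v = v * ψ := fun v hv a => by
    refine (mul_inv_eq_iff_eq_mul.1 ((cψ v (F.DT hv)).resolve_right fun e3 => ?_)).symm
    obtain ⟨r, hr, c, hc, e2⟩ := F.mem0.1 ψ0
    have e4 : ψ * v = v * ψ ∨ ψ * v = F.z * (v * ψ) := by
      have c1 := F.RD hr hv
      have c2 := F.fD hv
      have c3 := F.RD hr F.zD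
      rcases a c hc with e4 | e4 <;> rcases e2 with rfl | rfl
      · left; rw [mul_assoc, e4, ← mul_assoc, c1, mul_assoc]
      · left; rw [mul_assoc, c2, ← mul_assoc, mul_assoc r, e4, ← mul_assoc, c1]; group
      · right; rw [mul_assoc, e4, ← mul_assoc, c3, mul_assoc, ← mul_assoc r, c1]; group
      · right; rw [mul_assoc, c2, ← mul_assoc, mul_assoc r, e4, ← mul_assoc, c3, mul_assoc F.z, ← mul_assoc r, c1]
        group
    rw [mul_inv_eq_iff_eq_mul, mul_assoc] at e3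
    rcases e4 with e4 | e4 <;> rw [e4] at e3
    · exact F.t1 (by simpa using e3)
    · rw [← mul_assoc] at e3
      exact tz1 (F := F) (by simpa using e3)
  obtain ⟨r, hr, c, hc, rfl | rfl⟩ := cen0 ψ0 (k _ F.v1D fun _ => F.act1) (k _ F.v2D fun _ => F.act2)
  · exact nc ((cR h hr (cj d.τT)).mul_right (cZ hc (cj d.τT)))
  · rcases cψ τ d.τT with e3 | e3 <;> rw [mv hr hc] at e3
    · exact tz1 (F := F) (by simpa using e3)
    · exact F.z1 (by simpa using e3)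

end H80.A6C
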