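import Mathlib
import Cfsg.Agent.Lib.A6C.Cv

/-! An inner conjugate of `t`. -/

set_option autoImplicit false

namespace H80.A6C

open Subgroup H69 H36.SW

variable {X : Type} [Group X] {G : Type*} [Group G] [Finite G]
variable {J : Subgroup X} {A E : Subgroup G} {α : G → X} {t : G}

omit [Finite G] in
theorem inn_sq (k : ℕ) {x : G} (h : x ^ 2 ^ k = 1) (h1 : x * x ≠ 1) :
    ∃ n : ℕ, x ^ n * x ^ n ≠ 1 ∧ x ^ n * x ^ n * (x ^ n * x ^ n) = 1 := by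
  induction k generalizing x with
  | zero => rw [pow_zero, pow_one] at h; exact absurd (by rw [h, mul_one]) h1
  | succ k ih =>
    by_cases e : x * x * (x * x) = 1
    · exact ⟨1, by rwa [pow_one], by rwa [pow_one]⟩
    · obtain ⟨n, hn⟩ := ih (x := x * x) (by rw [← pow_two, ← pow_mul, ← pow_succ', h]) e
      exact ⟨2 * n, by rwa [pow_mul, pow_two]⟩

/-- an outer involution has a commuting conjugate under `A` -/
theorem inn_cj (c : Cov J A α) (hJ : JF J) {s : G} (hs : s ∈ 𝐍(A)) (s2 : s * s = 1) (h : α s ∉ J) :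
    ∃ a ∈ A, α (a * s * a⁻¹) ≠ α s ∧ a * s * a⁻¹ * s = s * (a * s * a⁻¹) := by
  obtain ⟨n, hn, h1, h2⟩ := hJ.cls _ h (c.sq hs s2)
  obtain ⟨a, ha, rfl⟩ := c.onto n hn
  have k : ∀ {b}, b ∈ A → α b = α a → s * (b * s * b⁻¹) ∈ A ∧ α (b * s * b⁻¹) = α a * α s * (α a)⁻¹ ∧
      α (s * (b * s * b⁻¹) * (s * (b * s * b⁻¹))) = 1 := fun {b} hb e => by
    have m : s * (b * s * b⁻¹) ∈ A := by
      have := mul_mem ((mem_normalizer_iff.1 hs b).1 hb) (inv_mem hb)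
      rwa [inv_eq_of_mul_eq_one_left s2, mul_assoc, mul_assoc, ← mul_assoc b] at this
    have e' := c.conj (le_normalizer hb) hs
    rw [e] at e'
    refine ⟨m, e', ?_⟩
    rw [c.mul' m m, c.mul s hs _ (mul_mem (mul_mem (le_normalizer hb) hs) (inv_mem (le_normalizer hb))), e', h2]
  obtain ⟨o, ho, -, p⟩ := H25.A7.dih2 s2 (cjsq s2 a)
  obtain ⟨m, -, e⟩ := k ha rfl
  have o1 : o ∈ A ⊓ 𝐂(A) := by
    refine (zpowers_le.2 ?_) ho
    rw [show 4 = 2 * 2 from rfl, pow_mul, pow_two (s * _)]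
    exact pow_mem (mem_inf.2 ⟨mul_mem m m, (c.ker _ (le_normalizer (mul_mem m m))).1 e⟩) 2
  obtain ⟨m', e1, e2⟩ := k (mul_mem o1.1 ha) (c.cen_mul (le_normalizer ha) o1.2)
  rw [show o * (a * s * a⁻¹) * o⁻¹ = o * a * s * (o * a)⁻¹ by group] at p
  have := c.eq_one (mul_mem m' m') (p.mul p rfl) e2
  refine ⟨o * a, mul_mem o1.1 ha, e1 ▸ h1, ?_⟩
  rw [eq_inv_of_mul_eq_one_left this, mul_inv_rev s, inv_eq_of_mul_eq_one_left s2,
    inv_eq_of_mul_eq_one_left (cjsq s2 _)]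

theorem H0.inner (h : H0 J E A α t) (hJ : JF J) {r : G} (hr : r ∈ 𝐂(A)) (r2 : r * r = t) :
    ∃ g, g * t * g⁻¹ ≠ t ∧ g * t * g⁻¹ * t = t * (g * t * g⁻¹) ∧ α (g * t * g⁻¹) ∈ J := by
  obtain ⟨g, g1, g2⟩ := h.zs
  by_cases hs : α (g * t * g⁻¹) ∈ J
  · exact ⟨g, g1, g2, hs⟩
  obtain ⟨s, e⟩ : ∃ s, g * t * g⁻¹ = s := ⟨_, rfl⟩
  have s2 : s * s = 1 := e ▸ cjsq h.tt g
  rw [e] at g1 g2 hs
  have sN := h.HN g2
  have N' : ∀ {x}, x * s = s * x → g⁻¹ * x * g ∈ 𝐍(A) := fun {x} c => h.HN (by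
    rw [← e] at c
    rw [show g⁻¹ * x * g * t = g⁻¹ * (x * (g * t * g⁻¹)) * g by group, c]; group)
  have fin : ∀ {x} (k : G), k * t * k⁻¹ = x → x ≠ s → x * s = s * x → α (g⁻¹ * x * g) ∈ J →
      ∃ g, g * t * g⁻¹ ≠ t ∧ g * t * g⁻¹ * t = t * (g * t * g⁻¹) ∧ α (g * t * g⁻¹) ∈ J := by
    rintro x k rfl h1 h2 h3
    have e' : g⁻¹ * k * t * (g⁻¹ * k)⁻¹ = g⁻¹ * (k * t * k⁻¹) * g := by group
    refine ⟨g⁻¹ * k, fun f => h1 ?_, ?_, e' ▸ h3⟩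
    · rw [← e, ← congrArg (fun x => g * x * g⁻¹) f]; group
    · rw [← e] at h2
      rw [e', show g⁻¹ * (k * t * k⁻¹) * g * t = g⁻¹ * (k * t * k⁻¹ * (g * t * g⁻¹)) * g by group, h2]; group
  have nM : s ∈ 𝐍(𝐂(A) ⊓ centralizer {t}) := inf_normalizer_le_normalizer_inf
    ⟨H69.normalizer_le_normalizer_centralizer A sN, le_normalizer (mem_centralizer_singleton_iff.2 g2)⟩
  obtain ⟨P, hP, sP⟩ := exists_isSylowIn_le (P2.of_sq s2).zpowers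
    (le_sup_right : _ ≤ 𝐂(A) ⊓ centralizer {t} ⊔ zpowers s)
  have hR := hP.inf_normal le_sup_left (sup_le le_normalizer (zpowers_le.2 nM))
  have sq' : ∀ {x : G}, x * x = 1 → g⁻¹ * x * g * (g⁻¹ * x * g) = 1 := fun {x} f => by
    rw [show g⁻¹ * x * g * (g⁻¹ * x * g) = g⁻¹ * (x * x) * g by group, f]; group
  by_cases hc : ∀ x ∈ P ⊓ (𝐂(A) ⊓ centralizer {t}), x * s = s * x → x = 1 ∨ x = t
  swap
  · push Not at hc
    obtain ⟨x, hx, c, x1, xt⟩ := hc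
    obtain ⟨k, hk⟩ := P2.of_mem hR.isP hx
    obtain ⟨n, n1, n2⟩ := inn_sq k hk fun f => by
      simpa [x1, xt, h.t1] using h.rk x hx.2.1 t h.tA f h.tt (mem_centralizer_singleton_iff.1 hx.2.2)
    have m := mul_mem (pow_mem hx.2 n) (pow_mem hx.2 n)
    have f : x ^ n * x ^ n = t := by
      simpa [n1, h.t1] using h.rk _ m.1 t h.tA n2 h.tt (mem_centralizer_singleton_iff.1 m.2)
    have w := N' (Commute.pow_left c n)
    refine fin 1 (by group) g1.symm g2.symm ?_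
    have e2 : g⁻¹ * t * g = g⁻¹ * x ^ n * g * (g⁻¹ * x ^ n * g) := by rw [← f]; group
    have w2 := mul_mem w w
    have e3 := h.cov.sq w2 (e2 ▸ sq' h.tt)
    rw [h.cov.mul _ w _ w] at e3
    rw [e2, h.cov.mul _ w _ w]
    exact hJ.sq4 _ e3
  have o4 : orderOf r = 2 ^ (1 + 1) := orderOf_eq_prime_pow (by rw [pow_one, pow_two, r2]; exact h.t1)
    (by rw [pow_add, pow_one, pow_mul, pow_two r, r2, pow_two, h.tt])
  have c4 := hR.card_le (P2.zpowers ⟨_, o4 ▸ pow_orderOf_eq_one r⟩)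
    (zpowers_le.2 ⟨hr, mem_centralizer_singleton_iff.2 (by rw [← r2, mul_assoc])⟩)
  rw [Nat.card_zpowers, o4] at c4
  obtain ⟨-, -, ρ, -, hρ⟩ := H25.A7.exists_two_inv hR.isP s2
    (inf_normalizer_le_normalizer_inf ⟨le_normalizer (sP (mem_zpowers s)), nM⟩) hc (by omega)
  obtain ⟨a, ha, a1, a2⟩ := inn_cj h.cov hJ sN s2 hs
  have aN : a * s * a⁻¹ ∈ 𝐍(A) := mul_mem (mul_mem (le_normalizer ha) sN) (inv_mem (le_normalizer ha))
  have a3 : a * s * a⁻¹ * t * s = s * (a * s * a⁻¹ * t) := by rw [mul_assoc, ← g2, ← mul_assoc, a2, mul_assoc]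
  have a4 : a * s * a⁻¹ * t = t * (a * s * a⁻¹) := by
    rw [mul_assoc, h.tA _ (inv_mem ha), ← mul_assoc, mul_assoc a, g2, ← mul_assoc, h.tA a ha]; group
  rcases hJ.out _ _ (h.cov.sq (N' a2) (sq' (cjsq s2 a))) (h.cov.sq (N' g2.symm) (sq' h.tt))
    (h.cov.comm (N' a2) (N' g2.symm) (by
      rw [show g⁻¹ * (a * s * a⁻¹) * g * (g⁻¹ * t * g) = g⁻¹ * (a * s * a⁻¹ * t) * g by group, a4]; group))
    with k2 | k1 | k3
  · exact fin (a * g) (by rw [← e]; group) (fun f => a1 (congrArg α f)) a2 k2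
  · exact fin 1 (by group) g1.symm g2.symm k1
  refine fin (a * ρ * g) ?_ (fun f => a1 ?_) a3 ?_
  · rw [show a * ρ * g * t * (a * ρ * g)⁻¹ = a * (ρ * (g * t * g⁻¹) * ρ⁻¹) * a⁻¹ by group, e, hρ, ← mul_assoc,
      mul_assoc _ t, ← h.tA _ (inv_mem ha), ← mul_assoc]
  · rw [← h.cov.mul_cen aN h.tA, f]
  · rwa [show g⁻¹ * (a * s * a⁻¹ * t) * g = g⁻¹ * (a * s * a⁻¹) * g * (g⁻¹ * t * g) by group,
      h.cov.mul _ (N' a2) _ (N' g2.symm)]

theorem H0.zt (h : H0 J E A α t) (hJ : JF J) {r z : G} (hr : r ∈ 𝐂(A)) (r2 : r * r = t) (zA : z ∈ A)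
    (zz : z * z = 1) (cl : ∀ x ∈ J, x * x = 1 → x ≠ 1 → ∃ j ∈ J, j * x * j⁻¹ = α z) :
    ∃ g, g * t * g⁻¹ = z ∨ g * t * g⁻¹ = t * z := by
  have c := h.cov
  obtain ⟨g, ne, cm, hj⟩ := h.inner hJ hr r2
  obtain ⟨a, aA, k, hk, aa, kk, ea, es⟩ := dec_inner c (h.HN cm) (cjsq h.tt g) hj
  have kt : k * t = t * k := mul_right_cancel (b := a) (by
    rw [mul_assoc, ← h.tA a aA, ← mul_assoc, ← es, cm, es, mul_assoc])
  have hk' := h.eqt kt kk (c.cen hk)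
  obtain ⟨j, jJ, ej⟩ := cl _ (c.mem a aA) (c.sq (le_normalizer aA) aa) fun e => by
    rw [c.eq_one aA (.of_sq aa) e, mul_one] at es
    exact hk'.elim (fun e => cjne h.t1 g (es.trans e)) fun e => ne (es.trans e)
  obtain ⟨b, bA, rfl⟩ := c.onto j jJ
  have e : b * g * t * (b * g)⁻¹ = k * z := by
    rw [← c.conj_eq (le_normalizer bA) aA zA (.of_sq aa) (.of_sq zz) ej, ← mul_assoc, ← mul_assoc,
      ← hk b bA, mul_assoc b k, ← es]
    group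
  exact ⟨b * g, hk'.imp (fun f => by rw [e, f, one_mul]) fun f => by rw [e, f]⟩

end H80.A6C
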