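import Mathlib
import Cfsg.Agent.Lib.A6C.Bas

/-! `|R| ≥ 4`: `t` and `z` are swapped. -/

set_option autoImplicit false

namespace H80.A6C

open Subgroup H69 H36.SW

variable {G : Type*} [Group G] [Finite G]

theorem Lf.R2_claim (F : Lf G) {r n : G} (hr : r ∈ F.R) (r2 : r * r = F.t) (hn : n ∈ 𝐍(F.T))
    (hs : n * F.t * n⁻¹ = F.z ∨ n * F.t * n⁻¹ = F.t * F.z) : n * F.t * n⁻¹ = F.z := by
  obtain ⟨s, es⟩ : ∃ s, n * F.t * n⁻¹ = s := ⟨_, rfl⟩
  obtain ⟨x, ex⟩ : ∃ x, n * r * n⁻¹ = x := ⟨_, rfl⟩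
  have xT : x ∈ F.T := ex ▸ conj_mem_of_mem_normalizer hn (F.RT hr)
  have x2 : x * x = s := by rw [← ex, conj_mul, r2, es]
  have s2 : s * s = 1 := es ▸ cjsq F.tt n
  have cj : ∀ y ∈ F.T, y * x * y⁻¹ = x ∨ y * x * y⁻¹ = x * s := fun y hy => by
    have y' : n⁻¹ * y * n⁻¹⁻¹ ∈ F.T := conj_mem_of_mem_normalizer (inv_mem hn) hy
    have e : y * x * y⁻¹ = n * (n⁻¹ * y * n⁻¹⁻¹ * r * (n⁻¹ * y * n⁻¹⁻¹)⁻¹) * n⁻¹ := by rw [← ex]; group
    rcases F.Rrt hr (F.cjR y' hr) (by rw [conj_mul, r2, F.Tt y', mul_inv_cancel_right]) with k | k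
    · left; rw [e, k, ex]
    · right; rw [e, k, ← conj_mul, ex, es]
  have x0 : x ∈ F.T0 := by
    refine F.in0 xT ?_
    have e : x * F.v1 * x⁻¹ * F.v1 = x * (F.v1 * x * F.v1⁻¹)⁻¹ := by
      rw [F.bs_ai]; simp only [mul_inv_rev, F.bs_ai, mul_assoc]
    rw [e]
    rcases cj _ F.v1T with k | k <;> rw [k]
    · simp
    · rw [← x2] at s2 ⊢
      calc _ = (x * x * (x * x))⁻¹ := by group
        _ = 1 := by rw [s2, inv_one]
  obtain ⟨ρ, hρ, d, hd, w, wT, ww, w1, w2, e⟩ : ∃ ρ ∈ F.R, ∃ d ∈ F.D, ∃ w ∈ F.T, w * w ∈ F.R ∧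
      w * F.v1 = F.v1 * w ∧ w * F.v2 = F.v2 * w ∧ x = ρ * d * w := by
    obtain ⟨ρ, hρ, d, hd, e | e⟩ := F.mem0.1 x0
    · exact ⟨ρ, hρ, d, hd, 1, one_mem _, by simp, by simp, by simp, by rw [mul_one, e]⟩
    · exact ⟨ρ, hρ, d, hd, F.f, F.fT, F.ff, F.fv1, F.fv2, e⟩
  rw [es] at hs ⊢
  have key : ∀ v ∈ F.T, ρ * v = v * ρ → w * v = v * w → d * v = F.z * (v * d) → s = F.z := by
    intro v hv h1 h2 h3
    have e1 : v * x * v⁻¹ = x * F.z := by
      have : x * v = F.z * (v * x) := by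
        calc x * v = ρ * (d * v) * w := by rw [e, mul_assoc, h2]; group
          _ = ρ * F.z * v * (d * w) := by rw [h3]; group
          _ = _ := by rw [F.Tz (F.RT hρ), mul_assoc F.z, h1, e]; group
      rw [F.Tz xT, mul_inv_eq_iff_eq_mul, mul_assoc, this, F.bs_zz]
    rcases cj v hv with k | k <;> rw [e1] at k
    · exact absurd (mul_eq_left.1 k) F.z1
    · exact (mul_left_cancel k).symm
  rcases F.act1 hd with a1 | a1
  swap
  · exact key _ F.v1T (F.Rv1 _ hρ) w1 a1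
  rcases F.act2 hd with a2 | a2
  swap
  · exact key _ F.v2T (F.Rv2 _ hρ) w2 a2
  exfalso
  have sR : s ∈ F.R := by
    have : s = ρ * (w * ρ * w⁻¹) * (w * w) := by
      rw [← x2, e]
      rcases F.cenD hd a1 a2 with rfl | rfl
      · group
      · calc _ = ρ * (F.z * (w * ρ) * F.z) * w := by group
          _ = _ := by rw [← F.Tz (mul_mem wT (F.RT hρ)), mul_assoc _ F.z, F.zz]; group
    rw [this]
    exact mul_mem (mul_mem hρ (F.cjR wT hρ)) ww
  rcases hs with rfl | rfl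
  · exact F.zR sR
  · exact F.zR ((Subgroup.mul_mem_cancel_left _ F.tR).1 sR)

theorem Lf.exSw (F : Lf G) {r g : G} (hr : r ∈ F.R) (r2 : r * r = F.t)
    (hg : g * F.t * g⁻¹ = F.z ∨ g * F.t * g⁻¹ = F.t * F.z) : ∃ m, F.Sw m := by
  obtain ⟨n, hn, en⟩ := H25.A7.burnside F.syl (rfl : g * F.t * g⁻¹ = _) fun y hy =>
    mem_centralizer_singleton_iff.2 (by
      rcases hg with e | e <;> rw [e]
      · exact F.Tz hy
      · rw [← mul_assoc, F.Tt hy, mul_assoc, F.Tz hy, mul_assoc])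
  have e1 := F.R2_claim hr r2 hn (en ▸ hg)
  have e2 : n * F.z * n⁻¹ = F.t := by
    obtain ⟨ρ, hρ, d, hd, e⟩ := F.cmT (conj_mem_of_mem_normalizer hn F.v1T) (conj_mem_of_mem_normalizer hn F.v2T)
    have e' : n * F.z * n⁻¹ = ρ * d := by
      rw [← e, ← F.hz]
      nth_rewrite 2 [← F.bs_ai]
      nth_rewrite 2 [← F.bs_bi]
      group
    have c : ∀ y ∈ F.T, ρ * y = y * ρ → d * y = y * d := fun y hy h => by
      have := F.Tz (conj_mem_of_mem_normalizer (inv_mem hn) hy)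
      have k : y * (n * F.z * n⁻¹) = n * F.z * n⁻¹ * y := by
        calc _ = n * (n⁻¹ * y * n⁻¹⁻¹ * F.z) * n⁻¹ := by group
          _ = _ := by rw [this]; group
      rw [e', ← mul_assoc, ← h, mul_assoc, mul_assoc] at k
      exact (mul_left_cancel k).symm
    have hd' := F.cenD hd (c _ F.v1T (F.Rv1 _ hρ)) (c _ F.v2T (F.Rv2 _ hρ))
    have ρ2 : ρ * ρ = 1 := by
      have := cjsq F.zz n
      rw [e'] at this
      rcases hd' with rfl | rfl
      · simpa using this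
      · rwa [mul_assoc, ← mul_assoc F.z, ← F.Tz (F.RT hρ), mul_assoc ρ, F.zz, mul_one] at this
    rcases F.Rinv hρ ρ2 with rfl | rfl <;> rcases hd' with rfl | rfl
    · exact absurd (e'.trans (mul_one _)) (cjne F.z1 n)
    · rw [one_mul] at e'
      exact absurd (by simpa using e1.trans e'.symm) F.tz
    · rw [e', mul_one]
    · have k : n * n * F.t * (n * n)⁻¹ = F.t * F.z := by rw [← e', ← e1]; group
      have := F.R2_claim hr r2 (mul_mem hn hn) (Or.inr k)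
      rw [k] at this
      exact absurd (mul_eq_right.1 this) F.t1
  obtain ⟨k, ⟨j, rfl⟩, hk⟩ := exists_odd_P2 n
  have c : ∀ {a b : G}, n * a * n⁻¹ = b → n * b * n⁻¹ = a → n ^ (2 * j + 1) * a * (n ^ (2 * j + 1))⁻¹ = b :=
    fun {a b} h1 h2 => by
      have : Commute (n ^ 2) a := mul_inv_eq_iff_eq_mul.1 (by
        calc _ = n * (n * a * n⁻¹) * n⁻¹ := by simp only [pow_two, mul_inv_rev, mul_assoc]
          _ = _ := by rw [h1, h2])
      rw [pow_succ', pow_mul, mul_assoc n, (this.pow_left j).eq, ← h1]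
      group
  exact ⟨_, pow_mem hn _, hk, c e1 e2, c e2 e1⟩

end H80.A6C
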