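import Mathlib
import Cfsg.Agent.Lib.A6C.Bas

/-! `|R| ≥ 4`: `T0 = D × D ^ m`. -/

set_option autoImplicit false

namespace H80.A6C

open Subgroup H69 H36.SW

variable {G : Type*} [Group G] [Finite G]

namespace R3
variable {F : Lf G} {m x y : G}

theorem cT (s : F.Sw m) (hx : x ∈ F.T) : m * x * m⁻¹ ∈ F.T := (mem_normalizer_iff.1 s.mT x).1 hx

theorem cT' (s : F.Sw m) (hx : x ∈ F.T) : m⁻¹ * x * m ∈ F.T := by
  simpa using (mem_normalizer_iff.1 (inv_mem s.mT) x).1 hx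

theorem nD' (s : F.Sw m) (hy : y ∈ F.T) (hx : m⁻¹ * x * m ∈ F.D) : m⁻¹ * (y * x * y⁻¹) * m ∈ F.D := by
  have := F.cjD (cT' s hy) hx
  convert this using 1
  group

theorem disj (s : F.Sw m) (hx : x ∈ F.D) (h : m⁻¹ * x * m ∈ F.D) : x = 1 := by
  have zt : m⁻¹ * F.z * m = F.t := by rw [← s.mt]; group
  have k : ∀ v ∈ F.T, x * v = F.z * (v * x) → False := fun v hv e => by
    have := mul_mem h (inv_mem (nD' s hv h))
    rw [show m⁻¹ * x * m * (m⁻¹ * (v * x * v⁻¹) * m)⁻¹ = m⁻¹ * (x * v * (v * x)⁻¹) * m by group, e,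
      mul_inv_cancel_right, zt] at this
    exact F.tD this
  rcases F.cenD hx ((F.act1 hx).resolve_right (k _ F.v1T)) ((F.act2 hx).resolve_right (k _ F.v2T)) with e | e
  · exact e
  · rw [e, zt] at h
    exact (F.tD h).elim

theorem cm (s : F.Sw m) {a b : G} (ha : a ∈ F.D) (hb : b ∈ F.D) :
    a * (m * b * m⁻¹) = m * b * m⁻¹ * a := by
  have h0 : m⁻¹ * (m * b * m⁻¹) * m ∈ F.D := by simpa [mul_assoc] using hb
  have h1 := mul_mem ha (inv_mem (F.cjD (cT s (F.DT hb)) ha))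
  have h2 := mul_mem (nD' s (F.DT ha) h0) (inv_mem h0)
  have := disj s h1 (by convert h2 using 1; group)
  rw [mul_inv_eq_one] at this
  nth_rewrite 1 [this]
  group

theorem in0' (s : F.Sw m) {b : G} (hb : b ∈ F.D) : m * b * m⁻¹ ∈ F.T0 :=
  F.in0 (cT s (F.DT hb)) (by rw [← cm s F.v1D hb, mul_inv_cancel_right, F.v11, one_mul])

/-- the product of the two dihedral groups -/
def DD' (s : F.Sw m) : Subgroup G where
  carrier := {x | ∃ a ∈ F.D, ∃ b ∈ F.D, x = a * (m * b * m⁻¹)}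
  one_mem' := ⟨1, one_mem _, 1, one_mem _, by simp⟩
  mul_mem' := by
    rintro _ _ ⟨a, ha, b, hb, rfl⟩ ⟨a', ha', b', hb', rfl⟩
    refine ⟨_, mul_mem ha ha', _, mul_mem hb hb', ?_⟩
    rw [mul_assoc a, ← mul_assoc _ a', ← cm s ha' hb]
    group
  inv_mem' := by
    rintro _ ⟨a, ha, b, hb, rfl⟩
    refine ⟨_, inv_mem ha, _, inv_mem hb, ?_⟩
    rw [cm s ha hb]
    group

theorem eqns_R3 : True := by
  have := @DD'.eq_1.{0}
  trivial

theorem zc {d : G} (h : d = 1 ∨ d = F.z) (hx : x ∈ F.T) : x * d = d * x := by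
  rcases h with rfl | rfl
  · simp
  · exact F.Tz hx

theorem zq {d : G} (h : d = 1 ∨ d = F.z) : d * d = 1 := by
  rcases h with rfl | rfl
  · simp
  · exact F.zz

theorem shape (s : F.Sw m) {v w : G} (hv : v ∈ F.D) (hw : w ∈ F.D) (v2 : v * v = 1) (c : v * w ≠ w * v) :
    F.f ≠ 1 ∧ ∃ r ∈ F.R, ∃ d, (d = 1 ∨ d = F.z) ∧ m * v * m⁻¹ = r * d * F.f := by
  have k : ∀ r ∈ F.R, ∀ d ∈ F.D, m * v * m⁻¹ = r * d → False := fun r hr d hd e => by
    have q : ∀ u ∈ F.D, d * u = u * d := fun u hu => by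
      have := cm s hu hv
      rw [e, ← mul_assoc, ← F.RD hr hu, mul_assoc, mul_assoc] at this
      exact (mul_left_cancel this).symm
    have h1 := F.cenD hd (q _ F.v1D) (q _ F.v2D)
    have h2 : r * r = 1 := by
      have : m * v * m⁻¹ * (m * v * m⁻¹) = 1 := by
        rw [show m * v * m⁻¹ * (m * v * m⁻¹) = m * (v * v) * m⁻¹ by group, v2]; simp
      rwa [e, mul_assoc, ← mul_assoc d, ← F.RD hr hd, mul_assoc r d d, zq h1, mul_one] at this
    have h3 := cT s (F.DT hw)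
    have h4 : m * w * m⁻¹ * r = r * (m * w * m⁻¹) := by
      rcases F.Rinv hr h2 with rfl | rfl
      · simp
      · exact F.Tt h3
    have h5 : m * w * m⁻¹ * (m * v * m⁻¹) = m * v * m⁻¹ * (m * w * m⁻¹) := by
      rw [e, ← mul_assoc, h4, mul_assoc r, zc h1 h3, mul_assoc r d]
    apply c
    have : m * (v * w) * m⁻¹ = m * (w * v) * m⁻¹ := by
      rw [show m * (v * w) * m⁻¹ = m * v * m⁻¹ * (m * w * m⁻¹) by group, ← h5]; group
    simpa using this
  obtain ⟨r, hr, d, hd, e | e⟩ := F.mem0.1 (in0' s hv)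
  · exact (k r hr d hd e).elim
  refine ⟨fun f1 => k r hr d hd (by rw [e, f1, mul_one]), r, hr, d, ?_, e⟩
  have q : ∀ u ∈ F.D, d * u = u * d := fun u hu => by
    have := cm s hu hv
    rw [e, ← mul_assoc, ← mul_assoc, ← F.RD hr hu, mul_assoc _ F.f, F.fD hu, ← mul_assoc] at this
    have := mul_right_cancel this
    rw [mul_assoc, mul_assoc] at this
    exact (mul_left_cancel this).symm
  exact F.cenD hd (q _ F.v1D) (q _ F.v2D)

theorem triv (s : F.Sw m) (k : ℕ) : ∀ u ∈ F.R, m * u * m⁻¹ ∈ F.R → u ^ 2 ^ k = 1 → u = 1 := by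
  induction k with
  | zero => intro u _ _ h; simpa using h
  | succ k ih =>
    intro u hu h e
    have := ih (u * u) (mul_mem hu hu) (by convert mul_mem h h using 1; group)
      (by rw [← pow_two, ← pow_mul, ← pow_succ', e])
    refine (F.Rinv hu this).resolve_right fun e' => F.zR ?_
    rwa [e', s.mt] at h

theorem prod {r r' d d' : G} (hr : r ∈ F.R) (hr' : r' ∈ F.R) (hd : d ∈ F.D) (hd' : d' ∈ F.D) :
    ∃ u ∈ F.R, r * d * F.f * (r' * d' * F.f) = u * (d * d') := by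
  have h1 := F.cjR F.fT hr'
  refine ⟨_, mul_mem (mul_mem hr h1) F.ff, ?_⟩
  calc r * d * F.f * (r' * d' * F.f) = r * (d * (F.f * r' * F.f⁻¹)) * (F.f * d') * F.f := by group
    _ = r * (F.f * r' * F.f⁻¹) * (d * d' * (F.f * F.f)) := by rw [← F.RD h1 hd, F.fD hd']; group
    _ = _ := by rw [← F.RD F.ff (mul_mem hd hd')]; group

theorem four (hx : x ∈ F.T0) : x * x * (x * x) ∈ F.R := by
  have : ∃ u ∈ F.R, ∃ d ∈ F.D, x * x = u * (d * d) := by
    obtain ⟨r, hr, d, hd, rfl | rfl⟩ := F.mem0.1 hx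
    · exact ⟨_, mul_mem hr hr, d, hd, by rw [mul_assoc, ← mul_assoc d, ← F.RD hr hd]; group⟩
    · obtain ⟨u, hu, e⟩ := prod hr hr hd hd
      exact ⟨u, hu, d, hd, e⟩
  obtain ⟨u, hu, d, hd, e⟩ := this
  rw [e, mul_assoc u, ← mul_assoc (d * d), ← F.RD hu (mul_mem hd hd), mul_assoc u, zq (F.sqD hd), mul_one]
  exact mul_mem hu hu

end R3

open R3

theorem Lf.Sw.dd {F : Lf G} {m : G} (s : F.Sw m) : F.DD m := by
  refine ⟨s, H25.A7.mem_of_P2_norm F.syl (mem_centralizer_singleton_iff.2 ?_) (s.m2.mul s.m2 rfl)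
    (mul_mem s.mT s.mT), fun a ha b hb => cm s ha hb, fun x => ⟨fun hx => ?_, ?_⟩⟩
  · rw [← mul_inv_eq_iff_eq_mul]
    calc m * m * F.t * (m * m)⁻¹ = m * (m * F.t * m⁻¹) * m⁻¹ := by group
      _ = F.t := by rw [s.mt, s.mz]
  swap
  · rintro ⟨a, ha, b, hb, rfl⟩
    exact mul_mem (F.D0 ha) (in0' s hb)
  have nc : F.v1 * F.v2 ≠ F.v2 * F.v1 := fun e => F.z1 (by
    have := F.v21
    rw [← e] at this
    exact (mul_eq_right.1 this.symm))
  obtain ⟨f1, r, hr, d, hd, e⟩ := shape s F.v1D F.v2D F.v11 nc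
  obtain ⟨-, r', hr', d', hd', e'⟩ := shape s F.v2D F.v1D F.v22 nc.symm
  have dD : ∀ {d}, d = 1 ∨ d = F.z → d ∈ F.D := fun h => h.elim (fun e => e ▸ one_mem _) fun e => e ▸ F.zD
  have l1 : ∀ {a}, a ∈ F.D → a ∈ DD' s := fun ha => ⟨_, ha, 1, one_mem _, by simp⟩
  have l2 : ∀ {a}, a ∈ F.D → m * a * m⁻¹ ∈ DD' s := fun ha => ⟨1, one_mem _, _, ha, by simp⟩
  have tS : F.t ∈ DD' s := s.mz ▸ l2 F.zD
  obtain ⟨u, hu, e2⟩ := prod hr hr' (dD hd) (dD hd')
  rw [← e, ← e'] at e2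
  have dd := mul_mem (dD hd) (dD hd')
  have uS : u ∈ DD' s := by
    have := mul_mem (mul_mem (l2 F.v1D) (l2 F.v2D)) (inv_mem (l1 dd))
    rwa [e2, mul_inv_cancel_right] at this
  have u2 : u * u = F.t := by
    have h1 : d * d' * (d * d') = 1 := by
      rw [mul_assoc, ← mul_assoc d', zc hd (F.DT (dD hd')), mul_assoc d d', zq hd', mul_one, zq hd]
    calc u * u = u * (d * d') * (u * (d * d')) := by
          rw [mul_assoc u, ← mul_assoc (d * d'), ← F.RD hu dd, mul_assoc u, h1, mul_one]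
      _ = m * (F.v1 * F.v2 * F.v1 * F.v2) * m⁻¹ := by rw [← e2]; group
      _ = F.t := by rw [F.hz, s.mz]
  have RS : ∀ ρ ∈ F.R, ρ ∈ DD' s := fun ρ hρ => by
    have xT := cT s (F.RT hρ)
    have x0 : m * ρ * m⁻¹ ∈ F.T0 := by
      by_contra h0
      have h1 := F.swf _ xT h0 f1
      have h2 : m * ρ * m⁻¹ * (m * F.v1 * m⁻¹) * (m * ρ * m⁻¹)⁻¹ = m * F.v1 * m⁻¹ := by
        rw [show m * ρ * m⁻¹ * (m * F.v1 * m⁻¹) = m * (ρ * F.v1) * m⁻¹ by group, F.Rv1 ρ hρ]; group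
      rw [e] at h2
      generalize m * ρ * m⁻¹ = x at xT h1 h2
      have h3 : x * F.f * x⁻¹ = (x * r * x⁻¹)⁻¹ * r * F.f := by
        have h4 : x * r * x⁻¹ * (x * F.f * x⁻¹) * d = r * F.f * d := by
          calc _ = x * r * F.f * (x⁻¹ * d) := by group
            _ = x * r * (F.f * d) * x⁻¹ := by rw [zc hd (inv_mem xT)]; group
            _ = r * (d * F.f) := by rw [zc hd F.fT, ← mul_assoc r, ← h2]; group
            _ = _ := by rw [← zc hd F.fT, mul_assoc]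
        rw [mul_assoc _ r, ← mul_right_cancel h4]; group
      rw [h3] at h1
      have := mul_mem (inv_mem h1) (mul_mem (inv_mem (F.cjR xT hr)) hr)
      exact F.zR (by convert this using 1; group)
    obtain ⟨k, hk⟩ := ((F.T2 (F.RT hρ)).mul (F.T2 (F.RT hρ)) rfl).mul
      ((F.T2 (F.RT hρ)).mul (F.T2 (F.RT hρ)) rfl) rfl
    have h4 := triv s k _ (mul_mem (mul_mem hρ hρ) (mul_mem hρ hρ))
      (by convert four x0 using 1; group) hk
    rcases F.Rinv (mul_mem hρ hρ) h4 with h5 | h5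
    · rcases F.Rinv hρ h5 with rfl | rfl
      · exact one_mem _
      · exact tS
    · rcases F.Rrt hu hρ (u2.trans h5.symm) with rfl | rfl
      · exact uS
      · exact mul_mem uS tS
  have fS : F.f ∈ DD' s := by
    have := mul_mem (inv_mem (mul_mem (RS r hr) (l1 (dD hd)))) (l2 F.v1D)
    rwa [e, inv_mul_cancel_left] at this
  obtain ⟨ρ, hρ, c, hc, rfl | rfl⟩ := F.mem0.1 hx
  · exact mul_mem (RS ρ hρ) (l1 hc)
  · exact mul_mem (mul_mem (RS ρ hρ) (l1 hc)) fS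

end H80.A6C
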