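import Mathlib
import Cfsg.Agent.Lib.A6C.Bas
import Cfsg.Agent.Lib.A6C.SR

/-! `|R| ≥ 4`, `T ≠ T0`. -/

set_option autoImplicit false

namespace H80.A6C

open Subgroup H69 H36.SW

variable {G : Type*} [Group G] [Finite G]

namespace R4

variable {F : Lf G} {m : G}

/-- two commuting elements of `D × D ^ m` have commuting first components -/
theorem key (s : F.DD m) {d e d1 e1 : G} (hd : d ∈ F.D) (he : e ∈ F.D) (hd1 : d1 ∈ F.D) (he1 : e1 ∈ F.D)
    (c : d * (m * e * m⁻¹) * (d1 * (m * e1 * m⁻¹)) = d1 * (m * e1 * m⁻¹) * (d * (m * e * m⁻¹)))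
    (n : d1 * d = F.z * (d * d1)) : False := by
  have c1 := s.cm d1 hd1 e he
  have c2 := s.cm d hd e1 he1
  have zc : F.z * (d * d1) = d * d1 * F.z := (F.Tz (F.DT (mul_mem hd hd1))).symm
  have k : d * d1 * ((m * e * m⁻¹) * (m * e1 * m⁻¹)) = d * d1 * (F.z * ((m * e1 * m⁻¹) * (m * e * m⁻¹))) := by
    calc d * d1 * ((m * e * m⁻¹) * (m * e1 * m⁻¹))
        = d * (d1 * (m * e * m⁻¹)) * (m * e1 * m⁻¹) := by group
      _ = d * (m * e * m⁻¹) * (d1 * (m * e1 * m⁻¹)) := by rw [c1]; group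
      _ = d1 * (m * e1 * m⁻¹ * d) * (m * e * m⁻¹) := by rw [c]; group
      _ = d1 * d * ((m * e1 * m⁻¹) * (m * e * m⁻¹)) := by rw [← c2]; group
      _ = _ := by rw [n, zc]; group
  have k2 := mul_left_cancel k
  have k3 : F.t = e * e1 * (e1 * e)⁻¹ := by
    have : m * F.t * m⁻¹ = m * (e * e1 * (e1 * e)⁻¹) * m⁻¹ := by
      rw [s.mt]
      calc F.z = F.z * ((m * e1 * m⁻¹) * (m * e * m⁻¹)) * ((m * e1 * m⁻¹) * (m * e * m⁻¹))⁻¹ := by group
        _ = _ := by rw [← k2]; group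
    simpa using this
  exact F.tD (k3 ▸ mul_mem (mul_mem he he1) (inv_mem (mul_mem he1 he)))

/-- the first component of an involution is an involution -/
theorem sq1 (s : F.DD m) {d e : G} (hd : d ∈ F.D) (he : e ∈ F.D)
    (h : d * (m * e * m⁻¹) * (d * (m * e * m⁻¹)) = 1) : d * d = 1 := by
  have c := s.cm d hd e he
  have k : d * d * (m * (e * e) * m⁻¹) = 1 := by
    calc d * d * (m * (e * e) * m⁻¹) = d * (d * (m * e * m⁻¹)) * (m * e * m⁻¹) := by group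
      _ = d * (m * e * m⁻¹ * d) * (m * e * m⁻¹) := by rw [c]
      _ = 1 := by rw [← h]; group
  rcases F.sqD hd with h1 | h1
  · exact h1
  rcases F.sqD he with h2 | h2
  · rw [h1, h2] at k
    exact absurd (by simpa using k) F.z1
  · rw [h1, h2, s.mz] at k
    refine absurd ?_ F.tz
    calc F.t = F.z * (F.z * F.t) := by rw [← mul_assoc, F.zz, one_mul]
      _ = F.z := by rw [k, mul_one]

omit [Finite G] in
theorem c12 (F : Lf G) : F.v1 * F.v2 * (F.v1 * F.v2) ≠ 1 := fun h =>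
  F.z1 (by rw [← F.hz, ← h]; group)

theorem c21 (F : Lf G) : F.v2 * F.v1 * (F.v2 * F.v1) ≠ 1 := fun h =>
  F.z1 (by rw [← F.hz', ← h]; group)

omit [Finite G] in
theorem flip {z v d e : G} (c : z * e = e * z) (n : e * v = z * (v * e)) (hd : d = v ∨ d = z * v) :
    e * d = z * (d * e) := by
  rcases hd with rfl | rfl
  · exact n
  · rw [← mul_assoc, ← c, mul_assoc, n, mul_assoc]

omit [Finite G] in
theorem comm_of {b d w v : G} (e : b = d * w) (c : v * w = w * v) : b * v = v * b ↔ d * v = v * d := by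
  rw [e, mul_assoc, ← c, ← mul_assoc, ← mul_assoc, mul_left_inj]

omit [Finite G] in
theorem comm_cj {b τ v w z : G} (c : τ * b * τ⁻¹ * v = v * (τ * b * τ⁻¹)) (hz : b * z = z * b)
    (e : τ⁻¹ * v * τ⁻¹⁻¹ = w ∨ τ⁻¹ * v * τ⁻¹⁻¹ = z * w) : b * w = w * b := by
  have k : b * (τ⁻¹ * v * τ⁻¹⁻¹) = τ⁻¹ * v * τ⁻¹⁻¹ * b := by
    calc b * (τ⁻¹ * v * τ⁻¹⁻¹) = τ⁻¹ * (τ * b * τ⁻¹ * v) * τ := by group
      _ = _ := by rw [c]; group
  rcases e with e | e
  · rwa [e] at k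
  · rw [e, ← mul_assoc, hz, mul_assoc, mul_assoc] at k
    exact mul_left_cancel k

theorem claim (s : F.DD m) {τ : G} (hτ : τ ∈ F.T) (h0 : τ ∉ F.T0) {B : Subgroup G} (n : F.T ≤ 𝐍(B))
    (h2 : ∀ b ∈ B, b * b = 1) {b : G} (hb : b ∈ B) (hT : b ∈ F.T) :
    b ∈ F.T0 ∧ b * F.v1 = F.v1 * b ∧ b * F.v2 = F.v2 * b := by
  have i0 : ∀ x ∈ B, x ∈ F.T → x ∈ F.T0 := fun x hx hxT => by
    refine F.in0 hxT (h2 _ ?_)
    have : x * F.v1 * x⁻¹ * F.v1 = x * (F.v1 * x⁻¹ * F.v1⁻¹) := by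
      rw [inv_eq_of_mul_eq_one_right F.v11]; group
    rw [this]
    exact mul_mem hx (conj_mem_of_mem_normalizer (n F.v1T) (inv_mem hx))
  have hb' : τ * b * τ⁻¹ ∈ B := conj_mem_of_mem_normalizer (n hτ) hb
  have hT' : τ * b * τ⁻¹ ∈ F.T := mul_mem (mul_mem hτ hT) (inv_mem hτ)
  obtain ⟨d, hd, e, he, eb⟩ := (s.gen b).1 (i0 b hb hT)
  obtain ⟨d1, hd1, e1, he1, eb'⟩ := (s.gen _).1 (i0 _ hb' hT')
  have cc : b * (τ * b * τ⁻¹) = τ * b * τ⁻¹ * b := by
    have k := h2 _ (mul_mem hb hb')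
    have k1 := inv_eq_of_mul_eq_one_right (h2 b hb)
    have k2 := inv_eq_of_mul_eq_one_right (h2 _ hb')
    rw [← inv_eq_of_mul_eq_one_right k, mul_inv_rev, k1, k2]
  have dd : d * d = 1 := sq1 s hd he (eb ▸ h2 b hb)
  have ky : d1 * d ≠ F.z * (d * d1) := fun k => key s hd he hd1 he1 (by rw [← eb', ← eb]; exact cc) k
  have i0' : τ⁻¹ ∉ F.T0 := fun k => h0 (by simpa using inv_mem k)
  have zd : F.z * d1 = d1 * F.z := (F.Tz (F.DT hd1)).symm
  have cz1 : F.z * F.v1 * F.v1 = F.v1 * (F.z * F.v1) := by rw [← mul_assoc, F.zv1]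
  have cz2 : F.z * F.v2 * F.v2 = F.v2 * (F.z * F.v2) := by rw [← mul_assoc, F.zv2]
  refine ⟨i0 b hb hT, ?_, ?_⟩
  · by_contra nb
    have nd : d * F.v1 ≠ F.v1 * d := fun k => nb ((comm_of eb (s.cm _ F.v1D e he)).2 k)
    have hd' : d = F.v2 ∨ d = F.z * F.v2 := by
      rcases F.memD.1 hd with k | k | k | k | k | k | k | k
      · exact absurd (by rw [k, one_mul, mul_one]) nd
      · exact absurd (by rw [k, F.zv1]) nd
      · exact absurd (by rw [k]) nd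
      · exact absurd (by rw [k, cz1]) nd
      · exact .inl k
      · exact .inr k
      · exact absurd (k ▸ dd) (c12 F)
      · exact absurd (k ▸ dd) (c21 F)
    rcases F.act2 hd1 with k | k
    · exact nb (comm_cj ((comm_of eb' (s.cm _ F.v2D e1 he1)).2 k) (F.Tz hT) (F.sw2 _ (inv_mem hτ) i0'))
    · exact ky (flip zd k hd')
  · by_contra nb
    have nd : d * F.v2 ≠ F.v2 * d := fun k => nb ((comm_of eb (s.cm _ F.v2D e he)).2 k)
    have hd' : d = F.v1 ∨ d = F.z * F.v1 := by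
      rcases F.memD.1 hd with k | k | k | k | k | k | k | k
      · exact absurd (by rw [k, one_mul, mul_one]) nd
      · exact absurd (by rw [k, F.zv2]) nd
      · exact .inl k
      · exact .inr k
      · exact absurd (by rw [k]) nd
      · exact absurd (by rw [k, cz2]) nd
      · exact absurd (k ▸ dd) (c12 F)
      · exact absurd (k ▸ dd) (c21 F)
    rcases F.act1 hd1 with k | k
    · exact nb (comm_cj ((comm_of eb' (s.cm _ F.v1D e1 he1)).2 k) (F.Tz hT) (F.sw1 _ (inv_mem hτ) i0'))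
    · exact ky (flip zd k hd')

end R4

theorem Lf.DD.out {F : Lf G} {m : G} (s : F.DD m) (h : ∃ x ∈ F.T, x ∉ F.T0) :
    Cfsg.SectionalPRankLE 2 4 G := by
  obtain ⟨τ, hτ, h0⟩ := h
  obtain ⟨S, hS, le⟩ := exists_isSylowIn_le (L := ⊤) (H25.A7.isP_sup F.syl.isP s.m2 s.mT) le_top
  have TS : F.T ≤ S := le_sup_left.trans le
  have mS : m ∈ S := le (mem_sup_right (mem_zpowers m))
  refine srt hS (z := F.z) (TS F.tT) F.tt fun B hB n h2 b hb c => ?_
  have hT : b ∈ F.T := F.SC hS.isP TS (hB hb) c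
  have hb' : m⁻¹ * b * m ∈ B := conj_mem_of_mem_normalizer' (n mS) hb
  have hT' : m⁻¹ * b * m ∈ F.T := conj_mem_of_mem_normalizer' s.mT hT
  obtain ⟨b0, c1, c2⟩ := R4.claim s hτ h0 (TS.trans n) h2 hb hT
  obtain ⟨-, c1', c2'⟩ := R4.claim s hτ h0 (TS.trans n) h2 hb' hT'
  obtain ⟨d, hd, e, he, eb⟩ := (s.gen b).1 b0
  have hd' : d = 1 ∨ d = F.z := F.cenD hd ((R4.comm_of eb (s.cm _ F.v1D e he)).1 c1)
    ((R4.comm_of eb (s.cm _ F.v2D e he)).1 c2)
  have zt : m⁻¹ * F.z * m = F.t := by rw [← s.mt]; group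
  have he' : e = 1 ∨ e = F.z := by
    rcases hd' with k | k
    · have : m⁻¹ * b * m = e := by rw [eb, k]; group
      exact F.cenD he (this ▸ c1') (this ▸ c2')
    · have : m⁻¹ * b * m = e * F.t := by
        rw [F.Tt (F.DT he), eb, k, ← zt]; group
      exact F.cenD he ((R4.comm_of this (F.Tt F.v1T)).1 c1') ((R4.comm_of this (F.Tt F.v2T)).1 c2')
  rcases hd' with k | k <;> rcases he' with k' | k'
  · exact .inl (by rw [eb, k, k']; group)
  · exact .inr (.inl (by rw [eb, k, k', s.mz, one_mul]))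
  · exact .inr (.inr (.inl (by rw [eb, k, k']; group)))
  · exact .inr (.inr (.inr (by rw [eb, k, k', s.mz, F.Tt F.zT])))

end H80.A6C
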