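import Mathlib
import Cfsg.Agent.Lib.A6C.Bas
import Cfsg.Agent.Lib.A6C.SR

/-! `|R| ≥ 4`, `T = T0`. -/

set_option autoImplicit false
set_option linter.unusedSectionVars false

namespace H80.A6C

open Subgroup H69 H36.SW

variable {G : Type*} [Group G] [Finite G]

namespace R5

variable {F : Lf G} {m : G} (s : F.DD m)
include s

theorem one_of {a b : G} (ha : a ∈ F.D) (hb : b ∈ F.D) (e : a = m * b * m⁻¹) : a = 1 := by
  rcases F.cenD ha (e ▸ (s.cm _ F.v1D b hb).symm) (e ▸ (s.cm _ F.v2D b hb).symm) with h | h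
  · exact h
  · rw [h, ← s.mt] at e
    exact absurd ((mul_left_cancel (mul_right_cancel e)) ▸ hb) F.tD

theorem uq {a b a' b' : G} (ha : a ∈ F.D) (hb : b ∈ F.D) (ha' : a' ∈ F.D) (hb' : b' ∈ F.D)
    (e : a * (m * b * m⁻¹) = a' * (m * b' * m⁻¹)) : a = a' ∧ b = b' := by
  have h : a'⁻¹ * a = 1 := one_of s (mul_mem (inv_mem ha') ha) (mul_mem hb' (inv_mem hb)) (by
    rw [inv_mul_eq_iff_eq_mul, ← conj_mul, ← mul_assoc a', ← e]; group)
  obtain rfl := inv_mul_eq_one.1 h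
  exact ⟨rfl, mul_left_cancel (mul_right_cancel (mul_left_cancel e))⟩

theorem exists_inv (h : ∀ x ∈ F.T, x ∈ F.T0) : ∃ n, n * n = 1 ∧ F.DD n := by
  obtain ⟨d, hd, e, he, h1⟩ := (s.gen _).1 (h _ s.mm)
  have h2 : m * (m * e * m⁻¹) * m⁻¹ = d * e * d⁻¹ := by
    calc _ = m * m * e * (m * m)⁻¹ := by group
      _ = d * (m * e * m⁻¹ * e) * (m * e * m⁻¹)⁻¹ * d⁻¹ := by rw [h1]; group
      _ = _ := by rw [← s.cm e he e he]; group
  have h3 : d * e * d⁻¹ * (m * d * m⁻¹) = d * (m * e * m⁻¹) := by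
    rw [s.cm _ (F.cjD (F.DT hd) he) d hd, ← h2, conj_mul, ← h1]; group
  obtain ⟨-, rfl⟩ := uq s (F.cjD (F.DT hd) he) hd hd he h3
  have k : ∀ y ∈ F.D, d⁻¹ * m * y * (d⁻¹ * m)⁻¹ = m * y * m⁻¹ := fun y hy => by
    calc _ = d⁻¹ * (m * y * m⁻¹ * d) := by group
      _ = _ := by rw [← s.cm d hd y hy]; group
  have h4 : d⁻¹ * m * (d⁻¹ * m) = 1 := by
    calc _ = d⁻¹ * (m * d * m⁻¹)⁻¹ * (m * m) := by group
      _ = _ := by rw [h1, s.cm d hd d hd]; group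
  refine ⟨d⁻¹ * m, h4, ⟨mul_mem (le_normalizer (inv_mem (F.DT hd))) s.mT, P2.of_sq h4, ?_, ?_⟩,
    h4 ▸ one_mem _, fun a ha b hb => ?_, fun x => ?_⟩
  · calc _ = d⁻¹ * (m * F.t * m⁻¹ * d) := by group
      _ = _ := by rw [s.mt, ← F.Tz (F.DT hd)]; group
  · rw [k _ F.zD, s.mz]
  · rw [k b hb, s.cm a ha b hb]
  · rw [s.gen]
    exact exists_congr fun a => and_congr_right fun _ => exists_congr fun b => and_congr_right fun hb => by
      rw [k b hb]

theorem cenT (h : ∀ x ∈ F.T, x ∈ F.T0) {w : G} (hw : w ∈ F.T)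
    (c : ∀ x ∈ F.T, x * w * x⁻¹ = w ∨ x * w * x⁻¹ = w * (F.t * F.z)) :
    w = 1 ∨ w = F.t ∨ w = F.z ∨ w = F.t * F.z := by
  obtain ⟨a, ha, b, hb, rfl⟩ := (s.gen _).1 (h _ hw)
  have h1 : a * (m * b * m⁻¹) * (F.t * F.z) = a * F.z * (m * (b * F.z) * m⁻¹) := by
    rw [← conj_mul, s.mz, F.Tz F.tT, mul_assoc a F.z, ← mul_assoc F.z, s.cm _ F.zD b hb]; group
  have k : ∀ y ∈ F.D, a * y = y * a ∧ b * y = y * b := fun y hy => by
    have y' : m * y * m⁻¹ ∈ F.T := conj_mem_of_mem_normalizer s.mT (F.DT hy)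
    have e1 : y * (a * (m * b * m⁻¹)) * y⁻¹ = y * a * y⁻¹ * (m * b * m⁻¹) := by
      rw [s.cm _ (F.cjD (F.DT hy) ha) b hb, s.cm a ha b hb, ← mul_assoc y, s.cm y hy b hb]; group
    have e2 : m * y * m⁻¹ * (a * (m * b * m⁻¹)) * (m * y * m⁻¹)⁻¹ = a * (m * (y * b * y⁻¹) * m⁻¹) := by
      rw [← mul_assoc _ a, ← s.cm a ha y hy]; group
    constructor
    · rcases c y (F.DT hy) with e | e
      · rw [e1] at e
        exact (mul_inv_eq_iff_eq_mul.1 (mul_right_cancel e)).symm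
      · rw [e1, h1] at e
        have := (uq s (F.cjD (F.DT hy) ha) hb (mul_mem ha F.zD) (mul_mem hb F.zD) e).2
        exact absurd (by simpa using this) F.z1
    · rcases c _ y' with e | e
      · rw [e2] at e
        exact (mul_inv_eq_iff_eq_mul.1 (uq s ha (F.cjD (F.DT hy) hb) ha hb e).2).symm
      · rw [e2, h1] at e
        have := (uq s ha (F.cjD (F.DT hy) hb) (mul_mem ha F.zD) (mul_mem hb F.zD) e).1
        exact absurd (by simpa using this) F.z1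
  rcases F.cenD ha (k _ F.v1D).1 (k _ F.v2D).1 with rfl | rfl <;>
    rcases F.cenD hb (k _ F.v1D).2 (k _ F.v2D).2 with rfl | rfl
  · simp
  · simp [s.mz]
  · simp
  · simp [s.mz, F.Tz F.tT]

theorem mT : m ∉ F.T := fun h => F.tz (by rw [← s.mt, F.Tt h, mul_inv_cancel_right])

theorem mtz : m * (F.t * F.z) = F.t * F.z * m :=
  mul_inv_eq_iff_eq_mul.1 (by rw [← conj_mul, s.mt, s.mz, F.Tz F.tT])

omit s in
theorem Ttz {x : G} (hx : x ∈ F.T) : x * (F.t * F.z) = F.t * F.z * x := by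
  rw [← mul_assoc, F.Tt hx, mul_assoc, F.Tz hx, mul_assoc]

omit s in
theorem n12 : F.v1 * F.v2 ≠ F.v2 * F.v1 := fun e => F.z1 (by
  have := F.v21
  rw [← e] at this
  simpa using this)

variable (h : ∀ x ∈ F.T, x ∈ F.T0) (m2 : m * m = 1)
include h m2

theorem memS {x : G} : x ∈ F.T ⊔ zpowers m ↔ x ∈ F.T ∨ x * m⁻¹ ∈ F.T := H25.A7.mem_adj s.mT s.mm

theorem cjt {x : G} (hx : x ∈ F.T ⊔ zpowers m) : x * F.t * x⁻¹ = F.t ∨ x * F.t * x⁻¹ = F.z := by
  rcases (memS s h m2).1 hx with e | e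
  · exact Or.inl (mul_inv_eq_iff_eq_mul.2 (F.Tt e))
  · refine Or.inr ?_
    calc _ = x * m⁻¹ * (m * F.t * m⁻¹) * (x * m⁻¹)⁻¹ := by group
      _ = _ := by rw [s.mt, F.Tz e]; group

theorem Stz {x : G} (hx : x ∈ F.T ⊔ zpowers m) : x * (F.t * F.z) = F.t * F.z * x := by
  rcases (memS s h m2).1 hx with e | e
  · exact Ttz e
  · calc _ = x * m⁻¹ * (m * (F.t * F.z)) := by group
      _ = _ := by rw [mtz s, ← mul_assoc, Ttz e]; group

theorem syl : IsSylowIn 2 (F.T ⊔ zpowers m) ⊤ := by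
  have p2 := H25.A7.isP_sup F.syl.isP s.m2 s.mT
  have mS : m ∈ F.T ⊔ zpowers m := mem_sup_right (mem_zpowers m)
  refine H25.A7.syl_of_norm (t := F.t) p2 le_top ?_ fun k _ hk => ?_
  · rw [top_inf_eq, le_antisymm (fun x hx => F.SC p2 le_sup_left hx.1 (mem_centralizer_singleton_iff.1 hx.2))
      (le_inf le_sup_left F.syl.le)]
    exact F.syl
  have tS : F.t ∈ F.T ⊔ zpowers m := mem_sup_left F.tT
  have zS : F.z ∈ F.T ⊔ zpowers m := mem_sup_left F.zT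
  have c1 : ∀ x ∈ F.T ⊔ zpowers m, x * (k * (F.t * F.z) * k⁻¹) * x⁻¹ = k * (F.t * F.z) * k⁻¹ := fun x hx => by
    calc _ = k * (k⁻¹ * x * k * (F.t * F.z)) * k⁻¹ * x⁻¹ := by group
      _ = _ := by rw [Stz s h m2 (conj_mem_of_mem_normalizer' hk hx)]; group
  have tz1 : F.t * F.z ≠ 1 := fun e => F.tz (by rw [← F.bs_zi]; exact eq_inv_of_mul_eq_one_left e)
  have c2 : k * (F.t * F.z) * k⁻¹ = F.t * F.z := by
    have uT := F.SC p2 le_sup_left (conj_mem_of_mem_normalizer hk (mul_mem tS zS))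
      (mul_inv_eq_iff_eq_mul.1 (c1 _ tS)).symm
    rcases cenT s h uT fun x hx => Or.inl (c1 x (mem_sup_left hx)) with e | e | e | e
    · exact absurd e (cjne tz1 k)
    · have := c1 m mS
      rw [e, s.mt] at this
      exact absurd this.symm F.tz
    · have := c1 m mS
      rw [e, s.mz] at this
      exact absurd this F.tz
    · exact e
  have c3 : ∀ x ∈ F.T ⊔ zpowers m, x * (k * F.t * k⁻¹) * x⁻¹ = k * F.t * k⁻¹ ∨
      x * (k * F.t * k⁻¹) * x⁻¹ = k * F.t * k⁻¹ * (F.t * F.z) := fun x hx => by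
    have e0 : x * (k * F.t * k⁻¹) * x⁻¹ = k * (k⁻¹ * x * k * F.t * (k⁻¹ * x * k)⁻¹) * k⁻¹ := by group
    rw [e0]
    refine (cjt s h m2 (conj_mem_of_mem_normalizer' hk hx)).imp (fun e => by rw [e]) fun e => ?_
    rw [e, ← c2, conj_mul, ← mul_assoc F.t, F.tt, one_mul]
  rcases (memS s h m2).1 (conj_mem_of_mem_normalizer hk tS) with hs | hs
  · rcases cenT s h hs fun x hx => c3 x (mem_sup_left hx) with e | e | e | e
    · exact absurd e (cjne F.t1 k)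
    · exact ⟨1, one_mem _, by rw [e]; group⟩
    · exact ⟨m, mS, by rw [e, s.mt]⟩
    · rw [← c2] at e
      exact absurd (by simpa using e) F.z1
  · exfalso
    have ss := cjsq F.tt k
    generalize k * F.t * k⁻¹ = u at hs c3 ss
    obtain ⟨a, ha, b, hb, e⟩ := (s.gen _).1 (h _ hs)
    have e1 : u * F.v1 * u⁻¹ = m * (b * F.v1 * b⁻¹) * m⁻¹ := by
      calc _ = u * m⁻¹ * (m * F.v1 * m⁻¹) * (u * m⁻¹)⁻¹ := by group
        _ = a * (m * (b * F.v1 * b⁻¹) * m⁻¹) * a⁻¹ := by rw [e]; group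
        _ = _ := by rw [s.cm a ha _ (F.cjD (F.DT hb) F.v1D)]; group
    have e2 := s.cm _ F.v2D _ (F.cjD (F.DT hb) F.v1D)
    rw [← e1] at e2
    have ui : u⁻¹ = u := inv_eq_of_mul_eq_one_left ss
    rcases c3 _ (mem_sup_left F.v1T) with e3 | e3
    · rw [← mul_inv_eq_iff_eq_mul.1 e3, mul_inv_cancel_right] at e2
      exact n12 e2.symm
    · have e4 : u * F.v1 * u⁻¹ = F.t * F.z * F.v1 := by
        calc _ = u⁻¹ * (F.v1 * u * F.v1⁻¹) * F.v1 := by rw [ui]; group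
          _ = _ := by rw [e3]; group
      rw [e4, ← mul_assoc, Ttz F.v2T, mul_assoc, mul_assoc _ F.v1] at e2
      exact n12 (mul_left_cancel e2).symm

theorem wr : Cfsg.SectionalPRankLE 2 4 G := by
  have mi : m⁻¹ = m := inv_eq_of_mul_eq_one_left m2
  have wT : F.v1 * (m * F.v1 * m⁻¹) ∈ F.T := mul_mem F.v1T (conj_mem_of_mem_normalizer s.mT F.v1T)
  have tzT := mul_mem F.tT F.zT
  have c11 := s.cm _ F.v1D _ F.v1D
  have mm : ∀ y, m * (m * y * m⁻¹) * m⁻¹ = y := fun y => by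
    calc _ = m * m * y * (m * m)⁻¹ := by group
      _ = _ := by rw [m2]; group
  have e0 : F.t * F.z = F.z * (m * F.z * m⁻¹) := by rw [s.mz, F.Tz F.tT]
  have mw : m * (F.v1 * (m * F.v1 * m⁻¹)) = F.v1 * (m * F.v1 * m⁻¹) * m :=
    mul_inv_eq_iff_eq_mul.1 (by rw [← conj_mul, mm, c11])
  have hT : ∀ x ∈ F.T, x * m = m * x → x * (F.v1 * (m * F.v1 * m⁻¹)) = F.v1 * (m * F.v1 * m⁻¹) * x →
      x ∈ closure ({m, F.t * F.z, F.v1 * (m * F.v1 * m⁻¹)} : Set G) := fun x hx h1 h2 => by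
    obtain ⟨a, ha, b, hb, rfl⟩ := (s.gen _).1 (h _ hx)
    have h3 := mul_inv_eq_iff_eq_mul.2 h1.symm
    rw [← conj_mul, mm, ← s.cm b hb a ha] at h3
    obtain ⟨rfl, -⟩ := uq s hb ha ha hb h3
    have h4 : b * F.v1 * (m * (b * F.v1) * m⁻¹) = F.v1 * b * (m * (F.v1 * b) * m⁻¹) := by
      rw [← conj_mul, ← conj_mul]
      calc _ = b * (F.v1 * (m * b * m⁻¹)) * (m * F.v1 * m⁻¹) := by group
        _ = b * (m * b * m⁻¹) * (F.v1 * (m * F.v1 * m⁻¹)) := by rw [s.cm _ F.v1D b hb]; group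
        _ = F.v1 * (m * F.v1 * m⁻¹ * b) * (m * b * m⁻¹) := by rw [h2]; group
        _ = _ := by rw [← s.cm b hb _ F.v1D]; group
    have b1 : F.t * F.z ∈ closure ({m, F.t * F.z, F.v1 * (m * F.v1 * m⁻¹)} : Set G) :=
      subset_closure (by simp)
    have b2 : F.v1 * (m * F.v1 * m⁻¹) ∈ closure ({m, F.t * F.z, F.v1 * (m * F.v1 * m⁻¹)} : Set G) :=
      subset_closure (by simp)
    rcases F.cen1 hb (uq s (mul_mem hb F.v1D) (mul_mem hb F.v1D) (mul_mem F.v1D hb) (mul_mem F.v1D hb) h4).1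
      with rfl | rfl | rfl | rfl
    · simp
    · exact e0 ▸ b1
    · exact b2
    · have := mul_mem b1 b2
      convert this using 1
      rw [e0, ← conj_mul, mul_assoc F.z, ← mul_assoc F.v1, s.cm _ F.v1D _ F.zD]
      group
  refine sr8' (syl s h m2) (mem_sup_right (mem_zpowers m)) (mem_sup_left tzT) (mem_sup_left wT) m2 ?_ ?_
    (mtz s) mw (Ttz wT).symm (fun e => mT s (e ▸ one_mem _)) ?_ (fun e => mT s (e ▸ tzT)) ?_
    (fun e => mT s (e ▸ wT)) ?_ (fun e => mT s ((mul_mem_cancel_right tzT).1 (e ▸ wT))) fun x hx h1 h2 h3 => ?_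
  · rw [mul_assoc, ← mul_assoc F.z, ← F.Tz F.tT, mul_assoc, F.zz, mul_one, F.tt]
  · nth_rewrite 2 [c11]
    rw [mul_assoc, ← mul_assoc (m * F.v1 * m⁻¹), cjsq F.v11, one_mul, F.v11]
  · exact fun e => F.tz (by rw [← F.bs_zi]; exact eq_inv_of_mul_eq_one_left e)
  · intro e
    have := (uq s F.v1D F.v1D (one_mem _) (one_mem _) (e.trans (by simp))).1
    exact n12 (F := F) (by rw [this]; simp)
  · intro e
    have := (uq s F.v1D F.v1D F.zD F.zD (e.trans e0)).1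
    exact n12 (F := F) (by rw [this, F.zv2])
  · rcases (memS s h m2).1 hx with e | e
    · exact hT x e h1 h3
    · have := hT _ e (by rw [mi, mul_assoc, m2, ← mul_assoc, ← h1, mul_assoc, m2])
        (((show Commute x _ from h3).mul_left (show Commute m _ from mw).inv_left).eq)
      simpa using mul_mem this (subset_closure (show m ∈ ({m, F.t * F.z, F.v1 * (m * F.v1 * m⁻¹)} : Set G) by simp))

end R5

theorem Lf.DD.wr {F : Lf G} {m : G} (s : F.DD m) (h : ∀ x ∈ F.T, x ∈ F.T0) :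
    Cfsg.SectionalPRankLE 2 4 G := by
  obtain ⟨n, h1, h2⟩ := R5.exists_inv s h
  exact R5.wr h2 h h1

end H80.A6C
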